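import Cfsg.Agent.H79.PLen2
import Cfsg.Agent.H23.Regular
import Cfsg.Agent.FLAV.Basic
import Cfsg.Agent.H8.StrongEmb

/-! Products along the derived series, and some lemmas on 2-groups. -/

set_option autoImplicit false
set_option linter.unusedSectionVars false

namespace Cfsg.Agent.BR

open Subgroup H49 H79 FLAV
open scoped commutatorElement

variable {G : Type*} [Group G] {R : Type*} [Ring R] {ρ : G →* R} {B C M N : Subgroup G} {k : ℕ}
  {A : R} {t x z : G}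

/-- The products `(t_{k-1} - 1) ⋯ (t_0 - 1)` with `t_i` in the `i`-th derived subgroup. -/
inductive Wd (ρ : G →* R) (B : Subgroup G) : ℕ → R → Prop
  | nil : Wd ρ B 0 1
  | snoc {k : ℕ} {A : R} {t : G} : Wd ρ B k A → t ∈ dS B k → Wd ρ B (k + 1) ((ρ t - 1) * A)

/-- All these products vanish. -/
def Van (ρ : G →* R) (B : Subgroup G) (k : ℕ) : Prop := ∀ A, Wd ρ B k A → A = 0

theorem dS_der (B : Subgroup G) (k : ℕ) : dS ⁅B, B⁆ k = dS B (k + 1) := by
  rw [add_comm, dS_add]; rfl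

theorem Wd.cons (h : Wd ρ ⁅B, B⁆ k A) (ht : t ∈ B) : Wd ρ B (k + 1) (A * (ρ t - 1)) := by
  induction h with
  | nil => simpa using Wd.nil.snoc (ρ := ρ) (k := 0) ht
  | snoc _ h2 ih => rw [mul_assoc]; exact ih.snoc (dS_der B _ ▸ h2)

theorem Wd.mono (h : Wd ρ B k A) (hB : B ≤ C) : Wd ρ C k A := by
  induction h with
  | nil => exact .nil
  | snoc _ h2 ih => exact ih.snoc (dS_mono hB _ h2)

theorem Wd.span (h : Wd ρ B k A) {S : Type*} [AddCommGroup S] (l : R →+ S)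
    (hl : ∀ b ∈ B, l (ρ b) = 0) : l A = 0 := by
  suffices ∀ b ∈ B, l (ρ b * A) = 0 by simpa using this 1 (one_mem _)
  induction h with
  | nil => simpa using hl
  | snoc _ h2 ih =>
    intro b hb
    rw [← mul_assoc, mul_sub, sub_mul, ← map_mul, mul_one, map_sub, ih b hb,
      ih _ (mul_mem hb (dS_le _ _ h2)), sub_self]

theorem Wd.comp_iff {Y : Type*} [Group Y] (f : Y →* G) {D : Subgroup Y} :
    Wd (ρ.comp f) D k A ↔ Wd ρ (D.map f) k A := by
  refine ⟨fun h => ?_, fun h => ?_⟩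
  · induction h with
    | nil => exact .nil
    | snoc _ h2 ih => exact ih.snoc (map_dS f D _ ▸ mem_map_of_mem f h2)
  · induction h with
    | nil => exact .nil
    | snoc _ h2 ih =>
      obtain ⟨t, h3, rfl⟩ := (map_dS f D _).ge h2
      exact ih.snoc h3

theorem Wd.rel {R' : Type*} [Ring R'] {ρ' : G →* R'} (r : R' → R → Prop) (h1 : r 1 1)
    (h2 : ∀ t ∈ B, ∀ A' A, r A' A → r ((ρ' t - 1) * A') ((ρ t - 1) * A)) (h : Wd ρ B k A) :
    ∃ A', Wd ρ' B k A' ∧ r A' A := by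
  induction h with
  | nil => exact ⟨1, .nil, h1⟩
  | snoc _ h3 ih =>
    obtain ⟨A', h4, h5⟩ := ih
    exact ⟨_, h4.snoc h3, h2 _ (dS_le _ _ h3) _ _ h5⟩

theorem last_pow {p : G → Prop} (a : ℕ) : ∀ x, p (x ^ 2 ^ a) → ¬ p x →
    ∃ j, ¬ p (x ^ 2 ^ j) ∧ p (x ^ 2 ^ j * x ^ 2 ^ j) := by
  induction a with
  | zero => intro x h1 h2; exact absurd (by simpa using h1) h2
  | succ a ih =>
    intro x h1 h2
    by_cases h : p (x * x)
    · exact ⟨0, by simpa using h2, by simpa using h⟩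
    obtain ⟨j, hj⟩ := ih (x * x) (by rwa [← pow_two, ← pow_mul, ← pow_succ']) h
    exact ⟨j + 1, by rwa [pow_succ', pow_mul, pow_two]⟩

theorem comm_mem_of_sq (h : ∀ x ∈ N, x * x ∈ M) {s : G} (hs : s ∈ N) (ht : t ∈ N) :
    ⁅s, t⁆ ∈ M := by
  have := mul_mem (mul_mem (h s hs) (h _ (mul_mem (inv_mem hs) ht))) (h _ (inv_mem ht))
  convert this using 1
  rw [commutatorElement_def]; group

theorem der_le_of_sq (h : ∀ x ∈ N, x * x ∈ M) : ⁅N, N⁆ ≤ M :=
  commutator_le.2 fun _ hs _ ht => comm_mem_of_sq h hs ht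

theorem exists_not_mem [Finite G] (hB : IsPGroup 2 B) (h : ¬ B ≤ M) :
    ∃ t ∈ B, ∀ b ∈ ⁅B, B⁆, b * t ∉ M := by
  by_contra hne
  push Not at hne
  refine h ((H23.eq_of_sup_der_pgroup hB (inf_le_left (b := M)) fun t ht => ?_).ge.trans
    inf_le_right)
  obtain ⟨b, hb, h1⟩ := hne t ht
  simpa using mul_mem (mem_sup_right (inv_mem hb))
    (mem_sup_left (mem_inf.2 ⟨mul_mem (der_le hb) ht, h1⟩))

/-- A normal four-group. -/
theorem four [Finite G] (hG : IsPGroup 2 G) (hz : z ∈ dS (⊤ : Subgroup G) 2) (h1 : z * z = 1)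
    (h2 : z ≠ 1) (h3 : z ∈ center G) :
    ∃ y : G, y * y = 1 ∧ y ≠ 1 ∧ y ≠ z ∧ ∀ b, b * y = y * b ∨ b * y = z * y * b := by
  have hzD : z ∈ ⁅(⊤ : Subgroup G), ⊤⁆ := der_le hz
  obtain ⟨_, ⟨c, rfl, hn, hc, hzc⟩, hmax⟩ := (Set.toFinite {C : Subgroup G | ∃ c, zpowers c = C ∧
    C.Normal ∧ c ∈ ⁅(⊤ : Subgroup G), ⊤⁆ ∧ z ∈ C}).exists_maximal
    ⟨_, z, rfl, ⟨fun u hu g => by
      rwa [mem_center_iff.1 (zpowers_le.2 h3 hu) g, mul_inv_cancel_right]⟩, hzD, mem_zpowers z⟩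
  have hD := H50.der_cent_cyclic (A := ⊤) (H50.cyclic_zpowers c) le_normalizer_of_normal
  let π := QuotientGroup.mk' (zpowers c)
  have hπ : ∀ x, π x = 1 ↔ x ∈ zpowers c := fun x => QuotientGroup.eq_one_iff x
  have h4 : Subgroup.map π ⁅(⊤ : Subgroup G), ⊤⁆ ≠ ⊥ := fun e => h2 (mem_bot.1
    ((commutator_eq_bot_iff.2 (hD.trans (cent_anti (((Subgroup.map_eq_bot_iff _).1 e).trans
      (QuotientGroup.ker_mk' _).le)))).le hz))
  haveI : (Subgroup.map π ⁅(⊤ : Subgroup G), ⊤⁆).Normal :=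
    Normal.map inferInstance π (QuotientGroup.mk'_surjective _)
  obtain ⟨⟨_, ⟨x, hx, rfl⟩, h5⟩, h6⟩ := ne_bot_iff_exists_ne_one.1 (inf_center_ne_bot_of_nilpotent
    (K := ⊤) ((hG.to_quotient _).to_subgroup ⊤).isNilpotent le_top le_normalizer_of_normal h4)
  obtain ⟨a, ha⟩ := hG x
  obtain ⟨j, h7, h8⟩ := last_pow (p := (· ∈ zpowers c)) a x (ha ▸ one_mem _)
    fun e => h6 (Subtype.ext ((hπ x).2 e))
  replace h5 : ∀ b, ⁅b, x ^ 2 ^ j⁆ ∈ zpowers c := fun b => (hπ _).1 (by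
    rw [map_commutatorElement, map_pow, commutatorElement_eq_one_iff_commute]
    exact (show Commute _ _ from h5 (π b) trivial).pow_right _)
  replace hx := pow_mem hx (2 ^ j)
  generalize x ^ 2 ^ j = x at *
  have hxc : ∀ u ∈ zpowers c, Commute u x := fun u hu => hD hx u hu
  obtain ⟨m, hm⟩ := mem_powers_iff_mem_zpowers.2 h8
  replace hm : c ^ m = x * x := hm
  rcases Nat.even_or_odd' m with ⟨n, rfl | rfl⟩
  · have e1 := hxc _ (inv_mem (npow_mem_zpowers c n))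
    have e2 : x * (c ^ n)⁻¹ * (x * (c ^ n)⁻¹) = 1 := by
      rw [← pow_two, e1.symm.mul_pow, pow_two, ← hm, inv_pow, ← pow_mul, mul_comm n, mul_inv_cancel]
    have e3 : ∀ u ∈ zpowers c, x * (c ^ n)⁻¹ ≠ u := fun u hu e =>
      h7 (mul_inv_eq_iff_eq_mul.1 e ▸ mul_mem hu (npow_mem_zpowers c n))
    refine ⟨_, e2, e3 1 (one_mem _), e3 z hzc, fun b => ?_⟩
    have e4 : ⁅b, x * (c ^ n)⁻¹⁆ ∈ zpowers c := by
      have := mul_mem (h5 b) (hn.conj_mem _ (mul_mem (hn.conj_mem _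
        (inv_mem (npow_mem_zpowers c n)) b) (npow_mem_zpowers c n)) x)
      convert this using 1
      simp only [commutatorElement_def]; group
    have e5 : Commute ⁅b, x * (c ^ n)⁻¹⁆ (x * (c ^ n)⁻¹) := (hxc _ e4).mul_right
      (hD (zpowers_le.2 hc e4) _ (inv_mem (npow_mem_zpowers c n))).symm
    generalize x * (c ^ n)⁻¹ = y at *
    have e6 : b * y = ⁅b, y⁆ * y * b := by rw [commutatorElement_def]; group
    have e7 : ⁅b, y⁆ ^ 2 = 1 := by
      rw [← mul_one (_ ^ 2), ← e2, ← pow_two, ← e5.mul_pow, show ⁅b, y⁆ * y = b * y * b⁻¹ by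
        rw [e6]; group, conj_pow, pow_two, e2]; group
    by_cases e8 : ⁅b, y⁆ = 1
    · exact .inl (by rw [e6, e8, one_mul])
    · exact .inr (by rw [e6, H8.involution_unique_of_isCyclic (H50.cyclic_zpowers c) e4 hzc
        (orderOf_eq_prime e7 e8) (orderOf_eq_prime (by rw [pow_two, h1]) h2)])
  · obtain ⟨a, ha⟩ := hG c
    obtain ⟨s, hs⟩ := exists_pow_eq_self_of_coprime (x := c) (n := 2 * n + 1)
      (Nat.Coprime.coprime_dvd_right (orderOf_dvd_of_pow_eq_one ha)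
        (Nat.Coprime.pow_right _ (by simp)))
    have e1 : zpowers c ≤ zpowers x :=
      zpowers_le.2 (hs ▸ pow_mem (hm ▸ mul_mem (mem_zpowers x) (mem_zpowers x)) s)
    refine (h7 (hmax ⟨x, rfl, normal_iff_top_le_norm.2 fun b _ => mem_norm_of_cj_le ?_, hx,
      e1 hzc⟩ e1 (mem_zpowers x))).elim
    rw [cj_def, MonoidHom.map_zpowers, zpowers_le]
    simpa [commutatorElement_def] using mul_mem (e1 (h5 b)) (mem_zpowers x)

end Cfsg.Agent.BR
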