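import Cfsg.Agent.BR.D1

/-! Traces attached to an invariant alternating form; planes over the field of order three. -/

set_option autoImplicit false
set_option linter.unusedSectionVars false

namespace Cfsg.Agent.BR

open Subgroup H49 H79 FLAV Module
open scoped commutatorElement

variable {G : Type*} [Group G] [Finite G] {F : Type*} [Field F] {K : Type*} [Field K] [CharP K 2]
  {W : Type*} [AddCommGroup W] [Module F W] {φ : G →* End F W} {β : W →ₗ[F] W →ₗ[F] F}
  {ψ : F → K} {ι d g i j s t x : G} {τ : W → G → K} {u v w : W} {U U' : Submodule F W}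

/-- An invariant alternating form and a faithful additive character. -/
structure Fm (φ : G →* End F W) (β : W →ₗ[F] W →ₗ[F] F) (ψ : F → K) : Prop where
  pg : IsPGroup 2 G
  two : (2 : F) ≠ 0
  three : (3 : F) = 0 → ∀ a : F, a ≠ 0 → a * a = 1
  alt : ∀ w, β w w = 0
  iso : ∀ g u v, β (φ g u) (φ g v) = β u v
  add : ∀ a b, ψ (a + b) = ψ a * ψ b
  zero : ψ 0 = 1
  inj : ∀ a, ψ a = 1 → a = 0

/-- The traces of the elements inverted by `ι`. -/
structure Tr (φ : G →* End F W) (β : W →ₗ[F] W →ₗ[F] F) (ψ : F → K) (ι : G) (τ : W → G → K) :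
    Prop extends Fm φ β ψ where
  cen : ι ∈ center G
  inv : ι * ι = 1
  sq : ∀ w g, φ ι w = -w → τ w g ^ 2 = ψ (β w (φ g w)) * τ (w + φ g w) (g * g)
  one : ∀ w, φ ι w = -w → w ≠ 0 → τ w 1 = 0
  one' : τ 0 1 = 1
  conj : ∀ w g a, φ ι w = -w → τ (φ a w) (a * g * a⁻¹) = τ w g

theorem sq_inj {a b : K} (h : a ^ 2 = b ^ 2) : a = b := frobenius_inj K 2 h

/-- The stabilizer of a subspace. -/
def St (φ : G →* End F W) (U : Submodule F W) : Subgroup G where
  carrier := {g | ∀ w ∈ U, φ g w ∈ U}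
  one_mem' := fun w hw => by simpa using hw
  mul_mem' := fun ha hb w hw => by rw [rep_mul_apply]; exact ha _ (hb w hw)
  inv_mem' := fun {a} ha w hw => by
    obtain ⟨n, hn⟩ := mem_powers_iff_mem_zpowers.2 (inv_mem (mem_zpowers a))
    rw [← show a ^ n = a⁻¹ from hn, map_pow]
    exact End.pow_apply_mem_of_forall_mem n ha w hw

/-- The elements acting trivially on a subspace. -/
def TV (φ : G →* End F W) (U : Submodule F W) : Subgroup G where
  carrier := {g | ∀ w ∈ U, φ g w = w}
  one_mem' := fun w _ => by simp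
  mul_mem' := fun ha hb w hw => by rw [rep_mul_apply, hb w hw, ha w hw]
  inv_mem' := fun {a} ha w hw => by rw [← ha w hw, H79.rep_inv_apply, ha w hw]

/-- The elements acting as a sign on a subspace. -/
def PM (φ : G →* End F W) (U : Submodule F W) : Subgroup G where
  carrier := {g | (∀ w ∈ U, φ g w = w) ∨ ∀ w ∈ U, φ g w = -w}
  one_mem' := .inl fun w _ => by simp
  mul_mem' := by
    rintro a b (ha | ha) (hb | hb)
    exacts [.inl fun w hw => by rw [rep_mul_apply, hb w hw, ha w hw],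
      .inr fun w hw => by rw [rep_mul_apply, hb w hw, map_neg, ha w hw],
      .inr fun w hw => by rw [rep_mul_apply, hb w hw, ha w hw],
      .inl fun w hw => by rw [rep_mul_apply, hb w hw, map_neg, ha w hw, neg_neg]]
  inv_mem' := fun {a} ha => ha.imp
    (fun ha w hw => by rw [← ha w hw, H79.rep_inv_apply, ha w hw])
    fun ha w hw => by rw [← neg_neg w, ← ha w hw, map_neg, H79.rep_inv_apply, ha w hw, neg_neg]

theorem PM_le : PM φ U ≤ St φ U := fun _ h w hw =>
  h.elim (fun e => (e w hw).symm ▸ hw) fun e => (e w hw).symm ▸ neg_mem hw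

theorem comm_TV (hs : s ∈ PM φ U) (ht : t ∈ St φ U) : ⁅s, t⁆ ∈ TV φ U := fun w hw => by
  have h1 := inv_mem ht w hw
  simp only [commutatorElement_def, rep_mul_apply]
  rcases hs with e | e
  · rw [(TV φ U).inv_mem e _ h1, H79.rep_apply_inv, e w hw]
  · rw [← neg_neg (φ t⁻¹ w), ← e _ h1, map_neg, H79.rep_inv_apply, map_neg, H79.rep_apply_inv,
      map_neg, e w hw, neg_neg]

theorem conj_PM (hs : s ∈ PM φ U) (h : ∀ w ∈ U', φ g⁻¹ w ∈ U) : g * s * g⁻¹ ∈ PM φ U' :=
  hs.imp (fun e w hw => by rw [rep_mul_apply, rep_mul_apply, e _ (h w hw), H79.rep_apply_inv])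
    fun e w hw => by rw [rep_mul_apply, rep_mul_apply, e _ (h w hw), map_neg, H79.rep_apply_inv]

/-- A plane over the field of order three. -/
def Pl (β : W →ₗ[F] W →ₗ[F] F) (U : Submodule F W) : Prop := (∀ a : F, a ≠ 0 → a * a = 1) ∧
  ∀ u ∈ U, ∀ v ∈ U, u ≠ 0 → β u v = 0 → v = 0 ∨ v = u ∨ v = -u

namespace Fm
variable (h : Fm φ β ψ)
include h

theorem neg_ne (hw : w ≠ 0) : -w ≠ w := fun e =>
  hw ((smul_eq_zero.1 (by rw [two_smul, ← neg_eq_iff_add_eq_zero, e])).resolve_left h.two)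

theorem skew (u v : W) : β u v = -β v u := by
  have := h.alt (u + v)
  simp only [map_add, LinearMap.add_apply, h.alt] at this
  linear_combination this

theorem ex_two (hs : s ∉ PM φ U) : ∃ w ∈ U, φ s w ≠ w ∧ φ s w ≠ -w := by
  simp only [PM, mem_mk, Submonoid.mem_mk, Subsemigroup.mem_mk, Set.mem_setOf_eq, not_or,
    not_forall] at hs
  obtain ⟨⟨u, hu, h1⟩, v, hv, h2⟩ := hs
  by_cases e1 : φ s u = -u
  swap
  · exact ⟨u, hu, h1, e1⟩
  by_cases e2 : φ s v = v
  swap
  · exact ⟨v, hv, e2, h2⟩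
  refine ⟨u + v, add_mem hu hv, fun e => h1 ?_, fun e => h2 ?_⟩ <;> rw [map_add] at e
  · rwa [e2, add_left_inj] at e
  · rwa [e1, neg_add, add_right_inj] at e

theorem sym (hv : φ d (φ d v) = -v) (u : W) : β u (φ d v) = β v (φ d u) := by
  rw [← h.iso d, hv, map_neg, h.skew, neg_neg]

theorem pl (h3 : (3 : F) = 0) (hd : d ∈ St φ U) (h1 : ∀ w ∈ U, φ d (φ d w) = -w)
    (h2 : ∀ w ∈ U, β w (φ d w) = 0 → w = 0) : Pl β U := by
  refine ⟨h.three h3, fun u hu v hv hu0 e => ?_⟩
  by_contra hne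
  simp only [not_or] at hne
  have a1 := h.three h3 _ fun e => hu0 (h2 u hu e)
  have a2 := h.three h3 _ fun e => hne.1 (h2 v hv e)
  have s1 := h.sym (h1 v hv) u
  have s2 := h.skew (φ d v) v
  have s3 := h.skew v u
  have s4 := h.iso d v u
  rcases mul_self_eq_mul_self_iff.1 (a1.trans a2.symm) with e1 | e1
  · have a3 := h.three h3 _ fun e => hne.2.2 (eq_neg_of_add_eq_zero_right (h2 _ (add_mem hu hv) e))
    have a4 := h.three h3 _ fun e => hne.2.1 (sub_eq_zero.1 (h2 _ (sub_mem hu hv) e)).symm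
    simp only [map_add, map_sub, LinearMap.add_apply, LinearMap.sub_apply, ← s1, ← e1] at a3 a4
    have a5 : β u (φ d v) = 0 := mul_self_eq_zero.1 (mul_left_cancel₀ h.two (by
      linear_combination a3 + a4 - 2 * a1 -
        (2 * β u (φ d u) ^ 2 + 2 * β u (φ d v) ^ 2) * h3))
    have a6 := h2 _ (add_mem hu (add_mem hv (hd v hv))) (by
      simp only [map_add, map_neg, LinearMap.add_apply, h1 v hv, h.alt]
      linear_combination a5 - s1 - 2 * e - s2 + s4 + s3 - e1 * 2 + a5 + β u (φ d u) * h3)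
    have a7 := congrArg (β · v) a6
    simp only [map_add, LinearMap.add_apply, h.alt, map_zero, LinearMap.zero_apply] at a7
    exact hne.1 (h2 v hv (by linear_combination s2 + e - a7))
  · have a6 := h2 _ (add_mem hu (hd v hv)) (by
      simp only [map_add, map_neg, LinearMap.add_apply, h1 v hv]
      linear_combination e1 - e - s2 + s4 + s3 - e)
    have a7 := congrArg (β · v) a6
    simp only [map_add, LinearMap.add_apply, map_zero, LinearMap.zero_apply] at a7
    exact hne.1 (h2 v hv (by linear_combination s2 + e - a7))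

variable (hU : Pl β U)
include hU

theorem aniso (hd : d ∈ St φ U) (h1 : ∀ w ∈ U, φ d (φ d w) = -w) (hw : w ∈ U)
    (e : β w (φ d w) = 0) : w = 0 := by_contra fun h0 => by
  have := h1 w hw
  rcases hU.2 w hw _ (hd w hw) h0 e with e | e | e
  · exact h0 ((rep_eq_zero_iff φ d).1 e)
  · exact h.neg_ne h0 (by rw [← this, e, e])
  · exact h.neg_ne h0 (by rw [← this, e, map_neg, e, neg_neg])

theorem tri (ht : t ∈ St φ U) : t ∈ PM φ U ∨ ∀ w ∈ U, φ t (φ t w) = -w := by
  obtain ⟨a, ha⟩ := h.pg t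
  induction a generalizing t with
  | zero => exact .inl ((show t = 1 by simpa using ha) ▸ one_mem (PM φ U))
  | succ a ih =>
    rcases ih (mul_mem ht ht) (by rwa [← pow_two, ← pow_mul, ← pow_succ']) with (e | e) | e
    · refine .inl (by_contra fun hn => ?_)
      obtain ⟨w, hw, h1, h2⟩ := h.ex_two hn
      have e1 : φ t (w + φ t w) = w + φ t w := by rw [map_add, ← rep_mul_apply, e w hw, add_comm]
      have e2 : φ t (w - φ t w) = -(w - φ t w) := by rw [map_sub, ← rep_mul_apply, e w hw, neg_sub]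
      have e3 := h.iso t (w + φ t w) (w - φ t w)
      have e4 : w - φ t w ≠ 0 := fun e => h1 (sub_eq_zero.1 e).symm
      rw [e1, e2, map_neg, neg_eq_iff_add_eq_zero, ← two_mul, mul_eq_zero] at e3
      rcases hU.2 _ (add_mem hw (ht w hw)) _ (sub_mem hw (ht w hw))
        (fun e => h2 (eq_neg_of_add_eq_zero_right e)) (e3.resolve_left h.two) with e | e | e
      · exact e4 e
      · exact h.neg_ne e4 (by rw [← e2, e, e1])
      · exact h.neg_ne e4 (by rw [← e2, e, map_neg, e1])
    · exact .inr fun w hw => by rw [← rep_mul_apply, e w hw]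
    refine .inl (.inl fun w hw => by_contra fun h0 => ?_)
    replace h0 : w ≠ 0 := fun e => h0 (by rw [e, map_zero])
    have an := fun v hv (h0 : v ≠ 0) => hU.1 _ fun e' => h0 (h.aniso hU (mul_mem ht ht) e hv e')
    have e0 : φ (t * t) w ≠ w := fun e' => h.neg_ne h0 (by rw [← e w hw, e', e'])
    have a1 := an w hw h0
    have a3 := an _ (add_mem hw (ht w hw)) fun e' => e0 (by
      rw [rep_mul_apply, eq_neg_of_add_eq_zero_right e', map_neg, eq_neg_of_add_eq_zero_right e',
        neg_neg])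
    have a4 := an _ (sub_mem hw (ht w hw)) fun e' => e0 (by
      rw [rep_mul_apply, ← sub_eq_zero.1 e', ← sub_eq_zero.1 e'])
    have s1 := h.sym (e _ (ht w hw)) w
    have s2 : β (φ t w) (φ (t * t) (φ t w)) = β w (φ (t * t) w) := by
      rw [← rep_mul_apply, mul_assoc, rep_mul_apply, h.iso]
    simp only [map_add, map_sub, LinearMap.add_apply, LinearMap.sub_apply, ← s1, s2] at a3 a4
    have a5 : β w (φ (t * t) (φ t w)) = 0 := mul_self_eq_zero.1 (mul_left_cancel₀ h.two (by
      linear_combination a3 + a4 - 2 * a1 - (2 * β w (φ (t * t) w) ^ 2 +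
        2 * β w (φ (t * t) (φ t w)) ^ 2) * (hU.1 2 h.two)))
    have e6 : φ (t * t) (φ t (φ (t * t) (φ t w))) = w := by
      rcases hU.2 w hw _ (mul_mem ht ht _ (ht w hw)) h0 a5 with e' | e' | e'
      · exact absurd ((rep_eq_zero_iff φ t).1 ((rep_eq_zero_iff φ _).1 e')) h0
      · rw [e', e']
      · rw [e', map_neg, map_neg, e', neg_neg]
    have e7 := e _ (mul_mem ht ht w hw)
    have e8 := e w hw
    simp only [rep_mul_apply] at e6 e7 e8
    have e9 := neg_eq_iff_eq_neg.1 (e7.symm.trans e6)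
    rw [e9, map_neg, map_neg, e9, neg_neg] at e8
    exact h.neg_ne h0 e8.symm

theorem sq_mem (ht : t ∈ St φ U) : t * t ∈ PM φ U :=
  (h.tri hU ht).elim (fun e => mul_mem e e) fun e => .inr fun w hw => by rw [rep_mul_apply, e w hw]

theorem klein (hi : i ∈ St φ U) (hj : j ∈ St φ U) (hx : x ∈ St φ U) (h1 : i ∉ PM φ U)
    (h2 : j ∉ PM φ U) (h3 : i * j ∉ PM φ U) (h4 : x ∉ PM φ U) :
    i * x ∈ PM φ U ∨ j * x ∈ PM φ U ∨ i * j * x ∈ PM φ U := by
  obtain ⟨w, hw, h0, -⟩ := h.ex_two h1
  replace h0 : w ≠ 0 := fun e => h0 (by rw [e, map_zero])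
  have an : ∀ t ∈ St φ U, β w (φ t w) = 0 → t ∈ PM φ U := fun t ht e =>
    (h.tri hU ht).elim id fun e' => absurd (h.aniso hU ht e' hw e) h0
  have key : ∀ s ∈ St φ U, ∀ t ∈ St φ U, s ∉ PM φ U → t ∉ PM φ U →
      β (φ i w) (φ t w) * β w (φ t w) = β (φ i w) (φ s w) * β w (φ s w) → s * t ∈ PM φ U := by
    intro s hs t ht hs' ht' e
    have a1 := hU.1 _ fun e => hs' (an s hs e)
    have a2 := hU.1 _ fun e => ht' (an t ht e)
    have a3 : β (φ i w) w ≠ 0 := fun e => h1 (an i hi (by rw [h.skew, e, neg_zero]))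
    set c := β w (φ t w) * β w (φ s w) with hc
    have a4 : β (φ i w) (φ t w - c • φ s w) = 0 := by
      rw [map_sub, map_smul, smul_eq_mul]
      linear_combination β w (φ t w) * e - β (φ i w) (φ t w) * a2
    rcases hU.2 w hw _ (sub_mem (ht w hw) (U.smul_mem c (hs w hw))) h0 (by
      rw [map_sub, map_smul, smul_eq_mul]; linear_combination -β w (φ t w) * a1) with e | e | e
    · have := mul_mem (h.sq_mem hU hs) (an _ (mul_mem (inv_mem hs) ht) (by
        rw [rep_mul_apply, sub_eq_zero.1 e, map_smul, H79.rep_inv_apply, map_smul, h.alt, smul_zero]))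
      simpa [mul_assoc] using this
    · exact absurd (by rwa [e] at a4) a3
    · exact absurd (by simpa [e] using a4) a3
  have hij := mul_mem hi hj
  have b1 := mt (key i hi j hj h1 h2) h3
  have b2 := mt (key i hi _ hij h1 h3) fun e => h2 (by
    simpa [mul_assoc] using mul_mem (inv_mem (h.sq_mem hU hi)) e)
  have b3 := mt (key _ hij j hj h3 h2) fun e => h1 (by
    simpa [mul_assoc] using mul_mem e (inv_mem (h.sq_mem hU hj)))
  refine Or.imp (key i hi x hx h1 h4) (Or.imp (key j hj x hx h2 h4) (key _ hij x hx h3 h4)) ?_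
  generalize β (φ i w) (φ i w) * _ = a, β (φ i w) (φ j w) * _ = b, β (φ i w) (φ (i * j) w) * _ = c,
    β (φ i w) (φ x w) * _ = e at *
  have : ∀ y : F, y = 0 ∨ y = 1 ∨ y = -1 := fun y =>
    or_iff_not_imp_left.2 fun e => mul_self_eq_one_iff.1 (hU.1 y e)
  rcases this a with rfl | rfl | rfl <;> rcases this b with rfl | rfl | rfl <;>
    rcases this c with rfl | rfl | rfl <;> rcases this e with rfl | rfl | rfl <;> tauto

end Fm

namespace Tr
variable (h : Tr φ β ψ ι τ)
include h

theorem neg_rep (hw : φ ι w = -w) (g : G) : φ ι (φ g w) = -φ g w := by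
  rw [← rep_mul_apply, ← mem_center_iff.1 h.cen, rep_mul_apply, hw, map_neg]

theorem neg_sum (hw : φ ι w = -w) (g : G) : φ ι (w + φ g w) = -(w + φ g w) := by
  rw [map_add, hw, h.neg_rep hw, neg_add]

theorem fix (hw : φ ι w = -w) (hg : φ g w = w) (h0 : w ≠ 0) : τ w g = 0 := by
  obtain ⟨a, ha⟩ := h.pg g
  induction a generalizing g w with
  | zero => rw [show g = 1 by simpa using ha, h.one w hw h0]
  | succ a ih =>
    refine pow_eq_zero_iff two_ne_zero |>.1 ?_
    rw [h.sq w g hw, ih (h.neg_sum hw g) (by simp only [rep_mul_apply, map_add, hg])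
      (fun e => h.neg_ne h0 (by rw [hg] at e; exact neg_eq_of_add_eq_zero_right e))
      (by rwa [← pow_two, ← pow_mul, ← pow_succ']), mul_zero]

theorem nul (g : G) : τ 0 g = 1 := by
  obtain ⟨a, ha⟩ := h.pg g
  induction a generalizing g with
  | zero => rw [show g = 1 by simpa using ha, h.one']
  | succ a ih =>
    refine sq_inj ?_
    rw [h.sq 0 g (by simp), map_zero, map_zero, add_zero, LinearMap.zero_apply, h.zero,
      ih _ (by rwa [← pow_two, ← pow_mul, ← pow_succ']), one_pow, one_mul]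

theorem neg (hw : φ ι w = -w) (hg : φ g w = -w) : τ w g = 1 := sq_inj (by
  rw [h.sq w g hw, hg, add_neg_cancel, h.nul, map_neg, h.alt, neg_zero, h.zero, one_pow, one_mul])

theorem invol (hw : φ ι w = -w) (hg : φ g (φ g w) = w) (h0 : φ g w ≠ -w) : τ w g = 0 := by
  refine pow_eq_zero_iff two_ne_zero |>.1 ?_
  rw [h.sq w g hw, h.fix (h.neg_sum hw g) (by simp only [rep_mul_apply, map_add, hg])
    (fun e => h0 (eq_neg_of_add_eq_zero_right e)), mul_zero]

theorem four (hw : φ ι w = -w) (hg : φ g (φ g w) = -w) : τ w g ^ 2 = ψ (β w (φ g w)) := by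
  rw [h.sq w g hw, h.neg (h.neg_sum hw g) (by simp only [rep_mul_apply, map_add, hg, map_neg,
    neg_add]), mul_one]

theorem mul (hU : ∀ w ∈ U, φ ι w = -w) (hU' : ∀ w ∈ U', φ ι w = -w) (hd : Disjoint U U')
    (ho : ∀ u ∈ U, ∀ v ∈ U', β u v = 0) (hg : g ∈ St φ U) (hg' : g ∈ St φ U') (hu : u ∈ U)
    (hv : v ∈ U') : τ (u + v) g = τ u g * τ v g := by
  have hn : ∀ u ∈ U, ∀ v ∈ U', φ ι (u + v) = -(u + v) := fun u hu v hv => by
    rw [map_add, hU u hu, hU' v hv, neg_add]
  obtain ⟨a, ha⟩ := h.pg g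
  induction a generalizing g u v with
  | zero =>
    obtain rfl : g = 1 := by simpa using ha
    by_cases e : u = 0
    · rw [e, zero_add, h.one', one_mul]
    by_cases e' : v = 0
    · rw [e', add_zero, h.one', mul_one]
    rw [h.one u (hU u hu) e, zero_mul, h.one _ (hn u hu v hv) fun e'' => e
      (Submodule.disjoint_def.1 hd u hu (eq_neg_of_add_eq_zero_left e'' ▸ neg_mem hv))]
  | succ a ih =>
    refine sq_inj ?_
    rw [mul_pow, h.sq _ g (hn u hu v hv), h.sq u g (hU u hu), h.sq v g (hU' v hv), map_add (φ g),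
      add_add_add_comm, ih (mul_mem hg hg) (mul_mem hg' hg') (add_mem hu (hg u hu))
        (add_mem hv (hg' v hv)) (by rwa [← pow_two, ← pow_mul, ← pow_succ']), mul_mul_mul_comm,
      ← h.add]
    simp only [map_add, LinearMap.add_apply, ho u hu _ (hg' v hv), h.skew v (φ g u),
      ho _ (hg u hu) v hv, neg_zero, add_zero, zero_add]

end Tr

end Cfsg.Agent.BR
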