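import Cfsg.Agent.BR.D2

/-! Nonvanishing of the products along the derived series on a Weil module. -/

set_option autoImplicit false
set_option linter.unusedSectionVars false

namespace Cfsg.Agent.BR

open Subgroup H49 H79 FLAV Module
open scoped commutatorElement

variable {G : Type*} [Group G] [Finite G] {F : Type*} [Field F] {K : Type*} [Field K] [CharP K 2]
  {W : Type*} [AddCommGroup W] [Module F W] {φ : G →* End F W} {β : W →ₗ[F] W →ₗ[F] F}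
  {ψ : F → K} {g s u z : G} {w : W} {U U₁ U₂ : Submodule F W} {R : Type*} [Ring R] {ρ : G →* R}
  {L : W → R →+ K} {B : Subgroup G} {k : ℕ}

/-- Two orthogonal subspaces permuted by `B`. -/
structure Split (φ : G →* End F W) (β : W →ₗ[F] W →ₗ[F] F) (B : Subgroup G)
    (U U₁ U₂ : Submodule F W) : Prop where
  le₁ : U₁ ≤ U
  le₂ : U₂ ≤ U
  ne₁ : U₁ ≠ ⊥
  ne₂ : U₂ ≠ ⊥
  dis : Disjoint U₁ U₂
  ort : ∀ u ∈ U₁, ∀ v ∈ U₂, β u v = 0
  perm : ∀ b ∈ B, (b ∈ St φ U₁ ∧ b ∈ St φ U₂) ∨ (∀ w ∈ U₁, φ b w ∈ U₂) ∧ ∀ w ∈ U₂, φ b w ∈ U₁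

theorem Split.symm (h : Fm φ β ψ) (hS : Split φ β B U U₁ U₂) : Split φ β B U U₂ U₁ :=
  ⟨hS.le₂, hS.le₁, hS.ne₂, hS.ne₁, hS.dis.symm, fun u hu v hv => by
    rw [h.skew, hS.ort v hv u hu, neg_zero], fun b hb => (hS.perm b hb).imp And.symm And.symm⟩

theorem Split.der (hS : Split φ β B U U₁ U₂) : ⁅B, B⁆ ≤ St φ U₁ :=
  der_le_of_sq fun x hx => (hS.perm x hx).elim (fun e => mul_mem e.1 e.1)
    fun e w hw => by rw [rep_mul_apply]; exact e.2 _ (e.1 w hw)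

theorem Split.swap (hS : Split φ β B U U₁ U₂) (hs : s ∈ B) (h : s ∉ St φ U₁) :
    (∀ w ∈ U₁, φ s w ∈ U₂) ∧ ∀ w ∈ U₂, φ s w ∈ U₁ := (hS.perm s hs).resolve_left fun e => h e.1

theorem Split.not_mem (hS : Split φ β B U U₁ U₂) (hs : s ∈ B) (h : s ∉ St φ U₁) : s ∉ St φ U₂ :=
  fun e => by
    obtain ⟨w, hw, h0⟩ := (Submodule.ne_bot_iff _).1 hS.ne₂
    exact h0 ((rep_eq_zero_iff φ s).1
      (Submodule.disjoint_def.1 hS.dis _ ((hS.swap hs h).2 w hw) (e w hw)))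

/-- The traces of the products vanish. -/
def Nv (L : W → R →+ K) (ρ : G →* R) (z : G) (B : Subgroup G) (U : Submodule F W) (k : ℕ) : Prop :=
  ∀ w ∈ U, ∀ A, Wd ρ B k A → L w ((ρ z - 1) * A) = 0

namespace Tr
variable (h : Tr φ β ψ z fun w g => L w (ρ g)) (hU : ∀ w ∈ U, φ z w = -w)
include h hU

theorem not_TV (h0 : U ≠ ⊥) : z ∉ TV φ U := fun e => by
  obtain ⟨w, hw, h0⟩ := (Submodule.ne_bot_iff _).1 h0
  exact h.neg_ne h0 ((hU w hw).symm.trans (e w hw))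

theorem exists_split (h0 : U ≠ ⊥) (hB : B ≤ St φ U) (hz : z ∈ dS B 2) :
    ∃ U₁ U₂, Split φ β B U U₁ U₂ := by
  have hI : Inv (φ.comp B.subtype) U := fun b w hw => hB b.2 w hw
  let π := QuotientGroup.mk' hI.res.ker
  have hπ : ∀ a b, π a = π b ↔ ∀ w ∈ U, φ a w = φ b w := fun a b =>
    ((fth_injective hI.res).eq_iff.symm).trans ⟨fun e w hw =>
      congrArg Subtype.val (LinearMap.congr_fun e ⟨w, hw⟩), fun e => LinearMap.ext fun w =>
        Subtype.ext (e w w.2)⟩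
  rw [← map_subtype_top B, ← map_dS] at hz
  obtain ⟨z, hz, rfl⟩ := hz
  have hs := QuotientGroup.mk'_surjective hI.res.ker
  obtain ⟨y, h1, h2, h3, h4⟩ := BR.four ((h.pg.to_subgroup B).to_quotient _) (z := π z)
    (by rw [← map_top_of_surjective π hs, ← map_dS]; exact mem_map_of_mem π hz)
    (by rw [← map_mul, show z * z = 1 from Subtype.ext h.inv, map_one])
    (fun e => h.not_TV hU h0 fun w hw => by simpa using (hπ z 1).1 e w hw)
    (mem_center_iff.2 fun b => by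
      obtain ⟨b, rfl⟩ := hs b
      rw [← map_mul, ← map_mul, show b * z = z * b from Subtype.ext (mem_center_iff.1 h.cen b)])
  obtain ⟨y, rfl⟩ := hs y
  replace h1 : ∀ w ∈ U, φ y (φ y w) = w := fun w hw => by
    simpa [rep_mul_apply] using (hπ (y * y) 1).1 h1 w hw
  obtain ⟨w, hw, h5, h6⟩ := h.ex_two (s := (y : G)) (U := U) (by
    rintro (e | e)
    exacts [h2 ((hπ y 1).2 (by simpa using e)),
      h3 ((hπ y z).2 fun w hw => (e w hw).trans (hU w hw).symm)])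
  have hw' := hB y.2 w hw
  refine ⟨U ⊓ LinearMap.ker (φ y - 1), U ⊓ LinearMap.ker (φ y + 1), inf_le_left, inf_le_left,
    (Submodule.ne_bot_iff _).2 ⟨w + φ y w, ⟨add_mem hw hw', by simp [h1 w hw, add_comm]⟩,
      fun e => h6 (eq_neg_of_add_eq_zero_right e)⟩,
    (Submodule.ne_bot_iff _).2 ⟨w - φ y w, ⟨sub_mem hw hw', by simp [h1 w hw]⟩,
      fun e => h5 (sub_eq_zero.1 e).symm⟩, Submodule.disjoint_def.2 fun x e e' => ?_,
    fun u e v e' => ?_, fun b hb => ?_⟩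
  · exact by_contra fun h0 => h.neg_ne h0
      ((eq_neg_of_add_eq_zero_left e'.2).symm.trans (sub_eq_zero.1 e.2))
  · have := h.iso y u v
    rw [show φ y u = u from sub_eq_zero.1 e.2, show φ y v = -v from eq_neg_of_add_eq_zero_left e'.2,
      map_neg, neg_eq_iff_add_eq_zero, ← two_mul] at this
    exact (mul_eq_zero.1 this).resolve_left h.two
  have m1 : ∀ x, x ∈ U ⊓ LinearMap.ker (φ y - 1) ↔ x ∈ U ∧ φ y x = x := by simp [sub_eq_zero]
  have m2 : ∀ x, x ∈ U ⊓ LinearMap.ker (φ y + 1) ↔ x ∈ U ∧ φ y x = -x := by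
    simp [add_eq_zero_iff_eq_neg]
  refine (h4 (π ⟨b, hb⟩)).imp (fun e => ?_) fun e => ?_
  · replace e : ∀ w ∈ U, φ y (φ b w) = φ b (φ y w) := fun w hw => by
      simpa [rep_mul_apply] using ((hπ (⟨b, hb⟩ * y) (y * (⟨b, hb⟩ : B))).1 e w hw).symm
    exact ⟨fun x hx => (m1 _).2 ⟨hB hb x hx.1, by rw [e x hx.1, ((m1 x).1 hx).2]⟩,
      fun x hx => (m2 _).2 ⟨hB hb x hx.1, by rw [e x hx.1, ((m2 x).1 hx).2, map_neg]⟩⟩
  · replace e : ∀ w ∈ U, φ y (φ b w) = -φ b (φ y w) := fun w hw => by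
      have := (hπ (⟨b, hb⟩ * y) (z * y * (⟨b, hb⟩ : B))).1 e w hw
      simp only [coe_mul, rep_mul_apply] at this
      rw [this, eq_comm, neg_eq_iff_eq_neg]
      exact hU _ (hB y.2 _ (hB hb w hw))
    exact ⟨fun x hx => (m2 _).2 ⟨hB hb x hx.1, by rw [e x hx.1, ((m1 x).1 hx).2]⟩,
      fun x hx => (m1 _).2 ⟨hB hb x hx.1, by rw [e x hx.1, ((m2 x).1 hx).2, map_neg, neg_neg]⟩⟩

theorem base (h0 : U ≠ ⊥) (hB : B ≤ St φ U) (hz : z ∈ ⁅B, B⁆) (hN : Nv L ρ z B U 1) : Pl β U := by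
  have key : ∀ t ∈ B, ∀ w ∈ U, w ≠ 0 → L w (ρ (z * t)) - L w (ρ t) = 1 := fun t ht w hw h0 => by
    have h1 := hN w hw _ (Wd.nil.snoc (k := 0) ht)
    have h2 := h.one w (hU w hw) h0
    have h3 := h.neg (hU w hw) (hU w hw)
    simp only [mul_one, mul_sub, sub_mul, one_mul, map_sub, map_one, map_mul] at h1 h2 h3 ⊢
    linear_combination h1 + h3 - h2
  obtain ⟨b, hb, h1⟩ : ∃ b ∈ B, b ∉ PM φ U := by_contra fun e => h.not_TV hU h0 (by
    push Not at e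
    exact commutator_le.2 (fun s hs t ht => comm_TV (e s hs) (hB ht)) hz)
  obtain ⟨a, ha⟩ := h.pg b
  obtain ⟨j, h2, h3⟩ := last_pow (p := (· ∈ PM φ U)) a b (ha ▸ one_mem _) h1
  replace hb := pow_mem hb (2 ^ j)
  generalize b ^ 2 ^ j = d at *
  have e1 : ∀ w ∈ U, φ (z * d) w = -φ d w := fun w hw => by rw [rep_mul_apply, hU _ (hB hb w hw)]
  have e2 : ∀ w ∈ U, φ (z * d) (φ (z * d) w) = φ (d * d) w := fun w hw => by
    rw [e1 w hw, map_neg, e1 _ (hB hb w hw), neg_neg, rep_mul_apply]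
  rcases h3 with h3 | h3
  · obtain ⟨w, hw, h4, h5⟩ := h.ex_two h2
    have := key d hb w hw fun e => h4 (by rw [e, map_zero])
    rw [h.invol (hU w hw) ((e2 w hw).trans (h3 w hw)) (by rwa [e1 w hw, Ne, neg_inj]),
      h.invol (hU w hw) (by rw [← rep_mul_apply, h3 w hw]) h5, sub_zero] at this
    exact absurd this zero_ne_one
  have h4 : ∀ w ∈ U, φ d (φ d w) = -w := fun w hw => by rw [← rep_mul_apply, h3 w hw]
  have h5 : ∀ w ∈ U, w ≠ 0 → ψ (-β w (φ d w)) - ψ (β w (φ d w)) = 1 := fun w hw h0 => by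
    rw [← h.four (hU w hw) (h4 w hw), ← map_neg, ← e1 w hw,
      ← h.four (hU w hw) ((e2 w hw).trans (h3 w hw)), ← sub_pow_char, key d hb w hw h0, one_pow]
  have h6 : ∀ w ∈ U, β w (φ d w) = 0 → w = 0 := fun w hw e => by_contra fun h0 => by
    simpa [e] using h5 w hw h0
  obtain ⟨w, hw, h0⟩ := (Submodule.ne_bot_iff _).1 h0
  refine h.pl ((mul_eq_zero.1 (h.inj (3 * β w (φ d w)) ?_)).resolve_right fun e => h0 (h6 w hw e))
    (hB hb) h4 h6
  have h7 := h.add (-β w (φ d w)) (β w (φ d w))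
  rw [neg_add_cancel, h.zero] at h7
  rw [show 3 * β w (φ d w) = β w (φ d w) + β w (φ d w) + β w (φ d w) by ring, h.add, h.add]
  have := h5 w hw h0
  linear_combination (1 - ψ (β w (φ d w))) *
    (ψ (β w (φ d w)) * this + h7 - CharTwo.two_eq_zero (R := K))

theorem cancel (hS : Split φ β B U U₁ U₂) (hg : g ∈ B) (h1 : g ∉ St φ U₁) (hw : w ∈ U₁) :
    L w (ρ (z * g)) = L w (ρ g) := by
  obtain ⟨h2, h3⟩ := hS.swap hg h1
  have m1 : g * g ∈ St φ U₁ := fun w hw => by rw [rep_mul_apply]; exact h3 _ (h2 w hw)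
  have m2 : g * g ∈ St φ U₂ := fun w hw => by rw [rep_mul_apply]; exact h2 _ (h3 w hw)
  have hm := fun {v} (hv : v ∈ U₂) => h.mul (fun w hw => hU w (hS.le₁ hw))
    (fun w hw => hU w (hS.le₂ hw)) hS.dis hS.ort m1 m2 hw hv
  have hc := mem_center_iff.1 h.cen
  have e1 := hU _ (hS.le₂ (h2 w hw))
  have e2 := h.conj _ (g * g) z e1
  refine sq_inj ((h.sq w _ (hU w (hS.le₁ hw))).trans ((h.sq w g (hU w (hS.le₁ hw))).trans ?_).symm)
  rw [← hc, mul_inv_cancel_right, e1] at e2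
  rw [rep_mul_apply, e1, hm (h2 w hw), mul_assoc, ← mul_assoc g, hc g, mul_assoc, ← mul_assoc z,
    h.inv, one_mul, hm (neg_mem (h2 w hw)), e2, map_neg, hS.ort w hw _ (h2 w hw), neg_zero]

theorem descend (hS : Split φ β B U U₁ U₂) (hs : s ∈ B) (h1 : s ∉ St φ U₁)
    (hN : Nv L ρ z B U (k + 1)) : Nv L ρ z ⁅B, B⁆ U₁ k := fun w hw A hA => by
  have h2 := hN w (hS.le₁ hw) _ (hA.cons hs)
  have h3 := hA.span ((L w).comp ((AddMonoidHom.mulLeft (ρ z - 1)).comp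
    (AddMonoidHom.mulRight (ρ s)))) fun b hb => by
      have := h.cancel hU hS (mul_mem (der_le hb) hs)
        (fun e => h1 (((St φ U₁).mul_mem_cancel_left (hS.der hb)).1 e)) hw
      simpa [sub_mul, sub_eq_zero, mul_assoc] using this
  rwa [mul_sub A, mul_one, mul_sub, map_sub, show L w (_ * (A * ρ s)) = 0 from h3, zero_sub,
    neg_eq_zero] at h2

theorem spec (hS : Split φ β B U U₁ U₂) (hs : s ∈ B) (h1 : s ∉ St φ U₁) (hP : Pl β U₁)
    (hu : u ∈ B) (h2 : u ∈ TV φ U₂) (h3 : u ∉ PM φ U₁) (hz : z ∈ ⁅B, B⁆) (hN : Nv L ρ z B U 2) :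
    False := by
  have u2 : u ∈ St φ U₂ := PM_le (.inl h2)
  have u1 : u ∈ St φ U₁ := by_contra fun e => hS.not_mem hu e u2
  have h4 := (h.tri hP u1).resolve_left h3
  obtain ⟨s1, s2⟩ := hS.swap hs h1
  obtain ⟨s3, s4⟩ := hS.swap (inv_mem hs) (by rwa [inv_mem_iff])
  obtain ⟨w, hw, h0⟩ := (Submodule.ne_bot_iff _).1 hS.ne₁
  have ht := commutator_mem_commutator hu hs
  have t1 : ∀ x ∈ U₁, φ ⁅u, s⁆ x = φ u x := fun x hx => by
    simp only [commutatorElement_def, rep_mul_apply]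
    rw [inv_mem h2 _ (s3 x hx), H79.rep_apply_inv]
  have t2 : ∀ x ∈ U₁, φ ⁅u, s⁆ (φ s x) = -φ s (φ u x) := fun x hx => by
    simp only [commutatorElement_def, rep_mul_apply]
    rw [H79.rep_inv_apply, h2 _ (s1 _ (inv_mem u1 x hx)), ← map_neg, ← neg_neg x, ← h4 x hx,
      map_neg, H79.rep_inv_apply, h4 x hx, neg_neg]
  have h5 := hN _ (add_mem (hS.le₁ hw) (hS.le₂ (s1 w hw))) _
    ((Wd.nil.snoc (k := 0) hu).snoc (k := 1) ht)
  generalize ⁅u, s⁆ = t at *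
  have z1 := fun x hx => hU x (hS.le₁ hx)
  have z2 := fun x hx => hU x (hS.le₂ hx)
  have hm := fun {g} (e : g ∈ St φ U₁ ⊓ St φ U₂) => h.mul z1 z2 hS.dis hS.ort e.1 e.2 hw (s1 w hw)
  have m1 : u ∈ St φ U₁ ⊓ St φ U₂ := ⟨u1, u2⟩
  have m2 := le_inf hS.der (hS.symm h.toFm).der
  have hw1 := u1 w hw
  have hw2 := u1 _ hw1
  have v0 := s1 w hw
  have v1 := s1 _ hw1
  have a0 := h.four (g := t) (z1 w hw) (by rw [t1 w hw, t1 _ hw1, h4 w hw])
  have b0 := h.four (g := t) (z2 _ v0) (by rw [t2 w hw, map_neg, t2 _ hw1, h4 w hw, map_neg, neg_neg])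
  have b1 := h.four (g := t * u) (z2 _ v0) (by
    simp only [rep_mul_apply, h2 _ v0, t2 w hw, map_neg, h2 _ v1, t2 _ hw1, h4 w hw, neg_neg])
  have b2 := h.four (g := z * u) (z1 w hw) (by
    simp only [rep_mul_apply, z1 _ hw1, map_neg, h4 w hw, z1 w hw, neg_neg])
  have b3 := h.four (g := z * t) (z1 w hw) (by
    simp only [rep_mul_apply, t1 w hw, z1 _ hw1, map_neg, t1 _ hw1, h4 w hw, z1 w hw, neg_neg])
  have a1 := h.four (g := z * t) (z2 _ v0) (by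
    simp only [rep_mul_apply, t2 w hw, map_neg, z2 _ v1, t2 _ hw1, h4 w hw, z2 _ v0, neg_neg])
  simp only [rep_mul_apply, t1 w hw, t2 w hw, h2 _ v0, z1 _ hw1, z2 _ v1, map_neg, neg_neg,
    h.iso] at a0 b0 b1 b2 b3 a1
  have c1 := hm (one_mem _)
  have c2 := hm m1
  have c3 := hm (m2 ht)
  have c4 := hm (mul_mem (m2 ht) m1)
  have c5 := hm (m2 hz)
  have c6 := hm (mul_mem (m2 hz) m1)
  have c7 := hm (mul_mem (m2 hz) (m2 ht))
  have c8 := hm (mul_mem (m2 hz) (mul_mem (m2 ht) m1))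
  rw [h.one w (z1 w hw) h0] at c1
  rw [h.fix (z2 _ v0) (h2 _ v0) (by rwa [Ne, rep_eq_zero_iff])] at c2
  rw [h.neg (z1 w hw) (by rw [rep_mul_apply, t1 _ hw1, h4 w hw]), sq_inj (b1.trans b0.symm)] at c4
  rw [h.neg (z1 w hw) (z1 w hw), h.neg (z2 _ v0) (z2 _ v0)] at c5
  rw [h.neg (z2 _ v0) (by rw [rep_mul_apply, h2 _ v0, z2 _ v0]), sq_inj (b2.trans b0.symm)] at c6
  rw [sq_inj (b3.trans b0.symm), sq_inj (a1.trans a0.symm)] at c7
  rw [h.fix (z1 w hw) (by simp only [rep_mul_apply, t1 _ hw1, h4 w hw, map_neg, z1 w hw, neg_neg])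
    h0] at c8
  simp only [mul_one, mul_sub, sub_mul, one_mul, map_sub, map_one, map_mul, zero_mul, mul_zero]
    at h5 c1 c2 c3 c4 c5 c6 c7 c8
  exact one_ne_zero (α := K) (by
    linear_combination h5 - c8 + c7 + c6 - c5 + c4 - c3 - c2 + c1 +
      L (φ s w) (ρ t) * CharTwo.two_eq_zero (R := K))

theorem spec' (hS : Split φ β B U U₁ U₂) (hs : s ∈ B) (h1 : s ∉ St φ U₁) (hP : Pl β U₁)
    (hP' : Pl β U₂) (hz : z ∈ dS B 2) (hN : Nv L ρ z B U 2) : False := by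
  have hz' : z ∈ ⁅B, B⁆ := der_le hz
  have z1 : z ∈ PM φ U₁ := .inr fun x hx => hU x (hS.le₁ hx)
  have h2 : ∀ u ∈ B, u ∈ PM φ U₂ → u ∈ PM φ U₁ := fun u hu e => by_contra fun e' => e.elim
    (fun e => h.spec hU hS hs h1 hP hu e e' hz' hN) fun e => h.spec hU hS hs h1 hP
      (mul_mem (der_le hz') hu) (fun x hx => by
        rw [rep_mul_apply, e x hx, map_neg, hU x (hS.le₂ hx), neg_neg])
      (by rwa [(PM φ U₁).mul_mem_cancel_left z1]) hz' hN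
  have hd := (hS.symm h.toFm).der
  obtain ⟨i, hi, j, hj, h3⟩ : ∃ i ∈ ⁅B, B⁆, ∃ j ∈ ⁅B, B⁆, ⁅i, j⁆ ∉ TV φ U₂ := by_contra fun e =>
    h.not_TV (fun x hx => hU x (hS.le₂ hx)) hS.ne₂ (by push Not at e; exact commutator_le.2 e hz)
  have i1 : i ∉ PM φ U₂ := fun e => h3 (comm_TV e (hd hj))
  have hn : zpowers s ≤ 𝒩(B ⊓ PM φ U₂) := zn (mem_norm_of_cj_le (by
    rintro _ ⟨m, hm, rfl⟩
    exact mem_inf.2 ⟨mul_mem (mul_mem hs hm.1) (inv_mem hs), conj_PM (h2 m hm.1 hm.2)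
      (hS.swap (inv_mem hs) (by rwa [inv_mem_iff])).2⟩))
  have h4 : ∀ b ∈ B, b ∈ St φ U₂ → b ∈ (B ⊓ PM φ U₂ ⊔ zpowers s) ⊔ ⁅B, B⁆ := fun b hb e => by
    have h5 : ∀ d ∈ ⁅B, B⁆, d * b ∈ PM φ U₂ → b ∈ (B ⊓ PM φ U₂ ⊔ zpowers s) ⊔ ⁅B, B⁆ :=
      fun d hd e => (mul_mem_cancel_left (mem_sup_right hd)).1
        (mem_sup_left (mem_sup_left ⟨mul_mem (der_le hd) hb, e⟩))
    by_cases e' : b ∈ PM φ U₂
    · exact h5 1 (one_mem _) (by rwa [one_mul])
    rcases h.klein hP' (hd hi) (hd hj) e i1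
      (fun e => h3 (commutatorElement_inv j i ▸ inv_mem (comm_TV e (hd hi)))) (fun e => h3 (by
        have := comm_TV e (hd hj)
        rwa [show ⁅i * j, j⁆ = ⁅i, j⁆ by simp only [commutatorElement_def]; group] at this)) e'
      with e | e | e
    exacts [h5 i hi e, h5 j hj e, h5 _ (mul_mem hi hj) e]
  have h5 := H23.eq_of_sup_der_pgroup (h.pg.to_subgroup B) (A := B ⊓ PM φ U₂ ⊔ zpowers s)
    (sup_le inf_le_left (zpowers_le.2 hs)) fun b hb => by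
      by_cases e : b ∈ St φ U₁
      · exact h4 b hb (by_contra fun e' => (hS.symm h.toFm).not_mem hb e' e)
      refine (mul_mem_cancel_right (mem_sup_left (mem_sup_right (mem_zpowers s)))).1
        (h4 _ (mul_mem hb hs) fun x hx => ?_)
      rw [rep_mul_apply]
      exact (hS.swap hb e).1 _ ((hS.swap hs h1).2 x hx)
  have h6 := der_le_sup_der (isProd_sup_of_norm_left hn) hn
  rw [h5, (H50.der_eq_bot_iff (A := zpowers s)).2 inferInstance, sup_bot_eq] at h6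
  exact i1 (h6 hi).2

end Tr

theorem Tr.star [FiniteDimensional F W] (h : Tr φ β ψ z fun w g => L w (ρ g)) (U : Submodule F W) :
    ∀ (B : Subgroup G) (k : ℕ), (∀ w ∈ U, φ z w = -w) → U ≠ ⊥ → B ≤ St φ U → z ∈ dS B k →
      Nv L ρ z B U k → k = 1 ∧ Pl β U := by
  induction U using WellFoundedLT.induction with
  | ind U ih =>
  intro B k hU h0 hB hz hN
  rcases k with _ | _ | k
  · obtain ⟨w, hw, h1⟩ := (Submodule.ne_bot_iff _).1 h0
    have h2 := h.one w (hU w hw) h1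
    have h3 := h.neg (hU w hw) (hU w hw)
    have := hN w hw 1 .nil
    simp only [map_one] at h2 h3
    rw [mul_one, map_sub, h2, h3, sub_zero] at this
    exact absurd this one_ne_zero
  · exact ⟨rfl, h.base hU h0 hB hz hN⟩
  obtain ⟨U₁, U₂, hS⟩ := h.exists_split hU h0 hB
    (dS_le _ k (by rwa [← dS_add, add_comm]))
  have hlt : ∀ {U₁ U₂}, Split φ β B U U₁ U₂ → U₁ < U := fun hS => lt_of_le_of_ne hS.le₁
    fun e => hS.ne₂ (hS.dis.symm.eq_bot_of_le (e ▸ hS.le₂))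
  by_cases h1 : B ≤ St φ U₁
  · exact absurd (ih U₁ (hlt hS) B _ (fun w hw => hU w (hS.le₁ hw)) hS.ne₁ h1 hz
      fun w hw => hN w (hS.le₁ hw)).1 (by omega)
  obtain ⟨s, hs, h2⟩ := SetLike.not_le_iff_exists.1 h1
  have key : ∀ {U₁ U₂}, Split φ β B U U₁ U₂ → s ∉ St φ U₁ → k + 1 = 1 ∧ Pl β U₁ := fun hS e =>
    ih _ (hlt hS) ⁅B, B⁆ (k + 1) (fun w hw => hU w (hS.le₁ hw)) hS.ne₁ hS.der
      ((dS_der B (k + 1)).ge hz) (h.descend hU hS hs e hN)
  obtain rfl : k = 0 := by have := (key hS h2).1; omega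
  exact (h.spec' hU hS hs h2 (key hS h2).2 (key (hS.symm h.toFm) (hS.not_mem hs h2)).2 hz hN).elim

end Cfsg.Agent.BR
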