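import Cfsg.Agent.BR.D3
import Cfsg.Agent.H79.Refl

/-! The exceptional case. -/

set_option autoImplicit false
set_option linter.unusedSectionVars false

namespace Cfsg.Agent.BR

open Subgroup H49 H79 FLAV Module
open scoped commutatorElement

variable {G : Type*} [Group G] [Finite G] {F : Type*} [Field F] {K : Type*} [Field K] [CharP K 2]
  {W : Type*} [AddCommGroup W] [Module F W] {φ : G →* End F W} {β : W →ₗ[F] W →ₗ[F] F}
  {ψ : F → K} {x z : G} {w : W} {R : Type*} [Ring R] {ρ : G →* R} {k : ℕ}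

theorem exists_cinv (hG : IsPGroup 2 G) {M : Subgroup G} [M.Normal] (h : M ≠ ⊥) :
    ∃ z ∈ M, z ∈ center G ∧ z * z = 1 ∧ z ≠ 1 := by
  obtain ⟨⟨x, hx, h1⟩, h2⟩ := ne_bot_iff_exists_ne_one.1 (inf_center_ne_bot_of_nilpotent (K := ⊤)
    (hG.to_subgroup ⊤).isNilpotent le_top le_normalizer_of_normal h)
  obtain ⟨a, ha⟩ := hG x
  obtain ⟨j, h3, h4⟩ := last_pow (p := (· = 1)) a x ha fun e => h2 (Subtype.ext e)
  exact ⟨_, pow_mem hx _, pow_mem (mem_center_iff.2 fun g => h1 g trivial) _, h4, h3⟩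

/-- The space inverted by `z`. -/
def Ng (φ : G →* End F W) (z : G) : Submodule F W := LinearMap.ker (φ z + 1)

theorem mem_Ng : w ∈ Ng φ z ↔ φ z w = -w := by simp [Ng, add_eq_zero_iff_eq_neg]

theorem St_Ng (hz : z ∈ center G) (g : G) : g ∈ St φ (Ng φ z) := fun w hw => mem_Ng.2 (by
  rw [← rep_mul_apply, ← mem_center_iff.1 hz, rep_mul_apply, mem_Ng.1 hw, map_neg])

theorem Ng_ne (hφ : Function.Injective φ) (h1 : z * z = 1) (h2 : z ≠ 1) : Ng φ z ≠ ⊥ := fun e =>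
  h2 (hφ (LinearMap.ext fun w => by
    have : w - φ z w ∈ Ng φ z := mem_Ng.2 (by rw [map_sub, rep_invol h1, neg_sub])
    rw [e, Submodule.mem_bot, sub_eq_zero] at this
    simpa using this.symm))

theorem Fm.exists_vec (h : Fm φ β ψ) (hφ : Function.Injective φ) (hz : z * z = 1)
    (hx : x ∈ center G) (h1 : x * x = 1) (h2 : x ≠ 1) (h3 : x ∈ TV φ (Ng φ z)) :
    ∃ v ≠ 0, φ z v = v ∧ φ x v = -v := by
  obtain ⟨w, hw, h0⟩ := (Submodule.ne_bot_iff _).1 (Ng_ne hφ h1 h2)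
  exact ⟨w + φ z w, fun e => h.neg_ne h0 ((mem_Ng.1 hw).symm.trans
    (h3 w (mem_Ng.2 (eq_neg_of_add_eq_zero_right e)))), by rw [map_add, rep_invol hz, add_comm],
    mem_Ng.1 (add_mem hw (St_Ng hx z w hw))⟩

theorem top [FiniteDimensional F W] (h : Fm φ β ψ) (hφ : Function.Injective φ)
    (hL : ∀ ι ∈ center G, ι * ι = 1 → ∃ L : W → R →+ K, Tr φ β ψ ι fun w g => L w (ρ g))
    (hV : Van ρ ⊤ (k + 1)) : dS (⊤ : Subgroup G) k = ⊥ ∨
      k = 1 ∧ ∀ c s : G, c * c * (c * c) = 1 → ⁅c, s⁆ = 1 ∨ ⁅c, s⁆ = c * c := by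
  refine or_iff_not_imp_left.2 fun hne => ?_
  have key : ∀ z ∈ dS (⊤ : Subgroup G) k, z ∈ center G → z * z = 1 → z ≠ 1 →
      k = 1 ∧ Pl β (Ng φ z) := fun z hz h1 h2 h3 => by
    obtain ⟨L, hT⟩ := hL z h1 h2
    exact hT.star _ ⊤ k (fun w => mem_Ng.1) (Ng_ne hφ h2 h3) (fun g _ => St_Ng h1 g) hz
      fun w _ A hA => by rw [hV _ (hA.snoc hz), map_zero]
  haveI : (dS (⊤ : Subgroup G) k).Normal := normal_iff_top_le_norm.2 (norm_dS le_normalizer k)
  obtain ⟨z, hz, z1, z2, z3⟩ := exists_cinv h.pg hne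
  obtain ⟨rfl, hP⟩ := key z hz z1 z2 z3
  refine ⟨rfl, ?_⟩
  obtain ⟨w, hw, w0⟩ := (Submodule.ne_bot_iff _).1 (Ng_ne hφ z2 z3)
  have hw' := mem_Ng.1 hw
  have hM : dS ⊤ 1 ⊓ TV φ (Ng φ z) = ⊥ := by_contra fun e => by
    haveI : (TV φ (Ng φ z)).Normal := ⟨fun m hm g v hv => by
      rw [rep_mul_apply, rep_mul_apply, hm _ (St_Ng z1 _ v hv), H79.rep_apply_inv]⟩
    obtain ⟨x, hx, x1, x2, x3⟩ := exists_cinv h.pg e
    obtain ⟨v, v0, v1, v2⟩ := h.exists_vec hφ z2 x1 x2 x3 hx.2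
    have x4 := mul_mem x1 z1
    have m1 : w ∈ Ng φ (x * z) := mem_Ng.2 (by rw [rep_mul_apply, hw', map_neg, hx.2 w hw])
    have m2 : v ∈ Ng φ (x * z) := mem_Ng.2 (by rw [rep_mul_apply, v1, v2])
    rcases h.tri (key _ (mul_mem hx.1 hz) x4 (by
      rw [mul_assoc, ← mul_assoc z, ← mem_center_iff.1 z1, mul_assoc, z2, mul_one, x2])
      fun e => h.neg_ne v0 (by simpa [e] using (mem_Ng.1 m2).symm)).2 (St_Ng x4 z) with (e | e) | e
    · exact h.neg_ne w0 (hw'.symm.trans (e w m1))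
    · exact h.neg_ne v0 ((e v m2).symm.trans v1)
    · exact h.neg_ne v0 (by rw [← e v m2, v1, v1])
  have hc : ∀ a b : G, ⁅a, b⁆ = 1 ∨ ⁅a, b⁆ = z := fun a b => by
    have h1 : ⁅a, b⁆ ∈ dS (⊤ : Subgroup G) 1 := commutator_mem_commutator trivial trivial
    refine (comm_mem_of_sq (N := ⊤) (fun x _ => h.sq_mem hP (St_Ng z1 x)) trivial trivial).imp
      (fun e => mem_bot.1 (hM ▸ mem_inf.2 ⟨h1, e⟩)) fun e => ?_
    have := mem_bot.1 (hM.le (mem_inf.2 ⟨mul_mem hz h1, fun v hv => by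
      rw [rep_mul_apply, e v hv, map_neg, mem_Ng.1 hv, neg_neg]⟩))
    rw [← inv_eq_of_mul_eq_one_right this, inv_eq_of_mul_eq_one_right z2]
  refine fun c s c4 => (hc c s).imp_right fun e => e.trans (by_contra fun hne => ?_)
  have c1 := (h.tri hP (St_Ng z1 c)).resolve_left fun e' =>
    h.neg_ne w0 (hw'.symm.trans ((e ▸ comm_TV e' (St_Ng z1 s)) w hw))
  have c2 : c * c ∈ center G := mem_center_iff.2 fun g =>
    (commutatorElement_eq_one_iff_mul_comm.1 (by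
      rw [show ⁅c * c, g⁆ = c * ⁅c, g⁆ * c⁻¹ * ⁅c, g⁆ by simp only [commutatorElement_def]; group]
      rcases hc c g with e | e <;> rw [e]
      · group
      · rw [mem_center_iff.1 z1 c, mul_inv_cancel_right, z2])).symm
  obtain ⟨v, v0, v1, v2⟩ := h.exists_vec hφ z2 (mul_mem c2 z1) (by
    rw [mul_assoc, ← mul_assoc z, ← mem_center_iff.1 z1, mul_assoc _ z, z2, mul_one, c4])
    (fun e => hne (by rw [← inv_eq_of_mul_eq_one_left e, inv_eq_of_mul_eq_one_right z2]))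
    fun x hx => by rw [rep_mul_apply, mem_Ng.1 hx, map_neg, rep_mul_apply, c1 x hx, neg_neg]
  rw [rep_mul_apply, v1] at v2
  obtain ⟨L, hT⟩ := hL _ c2 c4
  let U := LinearMap.ker (φ z - 1) ⊓ Ng φ (c * c)
  have mU : ∀ x ∈ U, φ z x = x := fun x hx => sub_eq_zero.1 hx.1
  have hv : v ∈ U := ⟨sub_eq_zero.2 v1, mem_Ng.2 v2⟩
  have n1 : ∀ x ∈ Ng φ z, φ (c * c) x = -x := fun x hx => by rw [rep_mul_apply, c1 x hx]
  have n2 : ∀ x ∈ U, φ (c * c) x = -x := fun x hx => mem_Ng.1 hx.2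
  have sU : ∀ g, g ∈ St φ U := fun g x hx => ⟨sub_eq_zero.2 (by
    rw [← rep_mul_apply, ← mem_center_iff.1 z1, rep_mul_apply, mU x hx]; rfl), St_Ng c2 g x hx.2⟩
  have hm := fun g => hT.mul n1 n2 (Submodule.disjoint_def.2 fun x h1 h2 => by_contra fun h0 =>
    h.neg_ne h0 ((mem_Ng.1 h1).symm.trans (mU x h2))) (fun a ha b hb => by
      have := h.iso z a b
      rw [mem_Ng.1 ha, mU b hb, map_neg, LinearMap.neg_apply, neg_eq_iff_add_eq_zero, ← two_mul]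
        at this
      exact (mul_eq_zero.1 this).resolve_left h.two) (St_Ng z1 g) (sU g) hw hv
  have h0 := congrArg (L (w + v)) (hV _ ((Wd.nil.snoc (k := 0) (mem_top c)).snoc hz))
  have hcw := mem_Ng.1 (St_Ng z1 c w hw)
  have hcv := mU _ (sU c v hv)
  rw [rep_mul_apply] at v2
  have a0 := hT.four (g := c) (n1 w hw) (c1 w hw)
  have a1 := hT.four (g := z * c) (n1 w hw) (by
    simp only [rep_mul_apply, hcw, map_neg, c1 w hw, hw', neg_neg])
  have b0 := hT.four (g := c) (n2 v hv) v2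
  have b1 := hT.four (g := z * c) (n2 v hv) (by simp only [rep_mul_apply, hcv, v2, map_neg, v1])
  simp only [rep_mul_apply, hcw, hcv, map_neg] at a1 b1
  have d1 := hm 1
  have d2 := hm z
  have d3 := hm c
  have d4 := hm (z * c)
  rw [hT.one w (n1 w hw) w0] at d1
  rw [hT.fix (n2 v hv) v1 v0] at d2
  rw [sq_inj (b1.trans b0.symm)] at d4
  simp only [mul_one, mul_sub, sub_mul, one_mul, map_sub, map_one, map_mul, zero_mul, mul_zero,
    map_zero] at h0 d1 d2 d3 d4 a1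
  have e1 : L v (ρ c) ≠ 0 := fun e => by
    have := h.add (β v (φ c v)) (-β v (φ c v))
    rw [add_neg_cancel, h.zero, ← b0, e] at this
    simp at this
  have e2 : L w (ρ z * ρ c) = L w (ρ c) :=
    mul_right_cancel₀ e1 (by linear_combination h0 - d4 + d3 + d2 - d1)
  have e3 := h.add (β w (φ c w)) (β w (φ c w))
  have e4 := h.add (β w (φ c w)) (-β w (φ c w))
  rw [add_neg_cancel, h.zero, ← a1, e2, a0, ← e3, ← two_mul] at e4
  exact w0 (h.aniso hP (St_Ng z1 c) c1 hw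
    ((mul_eq_zero.1 (h.inj _ e4.symm)).resolve_left h.two))

end Cfsg.Agent.BR
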