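import Cfsg.Agent.BR.D4
import Cfsg.Agent.H79.Shult
import Cfsg.Agent.H79.Sec

/-! The traces on an irreducible module of a group of class two. -/

set_option autoImplicit false
set_option linter.unusedSectionVars false

namespace Cfsg.Agent.BR

open Subgroup H49 H79 FLAV Module
open scoped commutatorElement

variable {K : Type*} [Field K] [CharP K 2] {V : Type*} [AddCommGroup V] [Module K V]
  [FiniteDimensional K V]

theorem trace_sq (A : End K V) : LinearMap.trace K V (A * A) = LinearMap.trace K V A ^ 2 := by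
  let b := Module.finBasis K V
  rw [LinearMap.trace_eq_matrix_trace K b, LinearMap.trace_eq_matrix_trace K b,
    LinearMap.toMatrix_mul]
  generalize LinearMap.toMatrix b b A = M
  have := Finset.sum_involution (s := Finset.univ)
    (f := fun p : _ × _ => M p.1 p.2 * M p.2 p.1 - if p.1 = p.2 then M p.1 p.1 ^ 2 else 0)
    (fun p _ => p.swap) (fun ⟨i, j⟩ _ => by
      by_cases e : i = j
      · simp [e, pow_two]
      · simp [e, Ne.symm e, mul_comm, CharTwo.add_self_eq_zero])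
    (fun ⟨i, j⟩ _ h e => h (by obtain rfl : j = i := congrArg Prod.fst e; simp [pow_two]))
    (fun _ _ => Finset.mem_univ _) fun _ _ => rfl
  simpa [Matrix.trace, Matrix.mul_apply, sum_pow_char, Fintype.sum_prod_type, sub_eq_zero]
    using this

theorem zmod3 : ∀ a : ZMod 3, a ≠ 0 → a * a = 1 := by decide

variable [IsAlgClosed K] [Nontrivial V] {X : Type*} [Group X] [Finite X] {Q B : Subgroup X}
  {q k : ℕ} [hq : Fact q.Prime]

theorem weil (ρ : X →* End K V) (hρ : Function.Injective ρ) (hq2 : 2 ≠ q)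
    (hi : Irr (ρ.comp Q.subtype)) (hcl : ⁅Q, Q⁆ ≤ 𝒞(Q)) (hexp : ∀ u ∈ Q, u ^ q = 1)
    (hB : IsPGroup 2 B) (hBQ : B ≤ 𝒩(Q)) (hV : Van ρ B (k + 1)) : dS B k = ⊥ ∨ k = 1 ∧
      ∀ c ∈ B, ∀ s ∈ B, c * c * (c * c) = 1 → ⁅c, s⁆ = 1 ∨ ⁅c, s⁆ = c * c := by
  have hqK : (q : K) ≠ 0 := fun h => hq2
    ((Nat.prime_dvd_prime_iff_eq Nat.prime_two hq.out).1 ((CharP.cast_eq_zero_iff K 2 q).1 h))
  have hc2 := (Nat.coprime_primes Nat.prime_two hq.out).2 hq2
  haveI := Fintype.ofFinite Q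
  have hK := card_ne_zero_of_pgroup hq.out hqK (show IsPGroup q Q from
    fun g => ⟨1, Subtype.ext (by simpa using hexp g g.2)⟩)
  let T : X → K := fun x => LinearMap.trace K V (ρ x)
  have T1 : (finrank K V : K) = 1 :=
    (CharTwo.natCast_cases K _).resolve_left (hi.finrank_ne_zero hK)
  have sc : ∀ c ∈ 𝒞(Q), ρ c = T c • 1 := fun c hc => by
    obtain ⟨a, ha⟩ := hi.schur (ρ c) fun g => by
      simpa using congrArg ρ (hc g g.2).symm
    simp [T, ha, T1]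
  have zc : ∀ c ∈ 𝒞(Q), ∀ x, x * c = c * x := fun c hc x => hρ (by simp [sc c hc])
  have Tm : ∀ c ∈ 𝒞(Q), ∀ x, T (c * x) = T c * T x := fun c hc x => by
    simp only [T, map_mul]; rw [sc c hc]; simp [T1]
  have To : T 1 = 1 := by simp [T, T1]
  have Tp : ∀ c ∈ 𝒞(Q), ∀ n, T (c ^ n) = T c ^ n := fun c hc n => by
    induction n with
    | zero => simpa using To
    | succ n ih => rw [pow_succ', Tm c hc, ih, pow_succ']
  have Tc : ∀ a x, T (a * x * a⁻¹) = T x := fun a x => by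
    simp only [T]; rw [map_mul, LinearMap.trace_mul_comm, ← map_mul, inv_mul_cancel_left]
  have cm : ∀ {g h}, g ∈ Q → h ∈ Q → ⁅g, h⁆ ∈ 𝒞(Q) := fun hg hh =>
    hcl (commutator_mem_commutator hg hh)
  obtain ⟨W, _, _, _, φ, ε, hs⟩ := exists_secRep (r := q) B.subtype (U := Q) (W := Q ⊓ 𝒞(Q))
    (fun a => hBQ a.2) (fun a => inv_inf (hBQ a.2) (inv_cent (hBQ a.2))) inf_le_left
    (le_inf der_le hcl) fun u hu => hexp u hu ▸ one_mem _
  haveI : NeZero (q : K) := ⟨hqK⟩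
  obtain ⟨ζ, hζ⟩ := HasEnoughRootsOfUnity.exists_primitiveRoot K q
  let ψ := AddChar.zmodChar q hζ.pow_eq_one
  have ψi : ∀ a, ψ a = 1 → a = 0 := fun a h => (ZMod.val_eq_zero a).1
    (Nat.eq_zero_of_dvd_of_lt ((hζ.pow_eq_one_iff_dvd _).1 h) (ZMod.val_lt a))
  have h2 : (2 : ZMod q) ≠ 0 := fun e => hq2 ((Nat.prime_dvd_prime_iff_eq hq.out Nat.prime_two).1
    ((ZMod.natCast_eq_zero_iff 2 q).1 e)).symm
  have ψj : ∀ a b, ψ a ^ 2 = ψ b ^ 2 → a = b := fun a b h => sub_eq_zero.1 (ψi _ (by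
    rw [AddChar.map_sub_eq_div, sq_inj h, div_self (ψ.val_isUnit b).ne_zero]))
  choose lf lQ lε using hs.surj
  have hb : ∀ u v : W, ∃ a, ∀ g ∈ Q, ∀ h ∈ Q, ε g = u → ε h = v → ψ a ^ 2 = T ⁅g, h⁆ := fun u v => by
    obtain ⟨i, -, e⟩ := hζ.eq_pow_of_pow_eq_one (ξ := T ⁅lf u, lf v⁆) (by
      rw [← Tp _ (cm (lQ u) (lQ v)), hexp _ (der_le (commutator_mem_commutator (lQ u) (lQ v))), To])
    refine ⟨2⁻¹ * i, fun g hg h hh e1 e2 => ?_⟩
    have h3 := ((hs.eq_iff hg (lQ u)).1 (e1.trans (lε u).symm)).2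
    have h4 := ((hs.eq_iff hh (lQ v)).1 (e2.trans (lε v).symm)).2
    rw [← AddChar.map_nsmul_eq_pow, nsmul_eq_mul, Nat.cast_ofNat, mul_inv_cancel_left₀ h2,
      AddChar.zmodChar_apply', e, ← inv_mul_cancel_right g (lf u), ← inv_mul_cancel_right h (lf v)]
    generalize g * _ = c, h * _ = d at *
    congr 1
    rw [show ⁅c * lf u, d * lf v⁆ = c * (lf u * d * lf v * (lf u)⁻¹) * c⁻¹ * (lf v)⁻¹ * d⁻¹ by
      simp only [commutatorElement_def]; group, ← zc c h3, mul_inv_cancel_right, zc d h4,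
      zc d⁻¹ (inv_mem h4), commutatorElement_def]
    group
  choose β₀ hβ using hb
  have a1 : ∀ u u' v, β₀ (u + u') v = β₀ u v + β₀ u' v := fun u u' v => ψj _ _ (by
    rw [AddChar.map_add_eq_mul, mul_pow, hβ _ _ _ (lQ u) _ (lQ v) (lε u) (lε v),
      hβ _ _ _ (lQ u') _ (lQ v) (lε u') (lε v), hβ _ _ _ (mul_mem (lQ u) (lQ u')) _ (lQ v)
        (by rw [hs.mul _ (lQ u) _ (lQ u'), lε, lε]) (lε v), mul_comm, ← Tm _ (cm (lQ u') (lQ v)),
      ← mul_inv_cancel_right ⁅lf u', lf v⁆ (lf u), ← zc _ (cm (lQ u') (lQ v))]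
    congr 1; simp only [commutatorElement_def]; group)
  have a2 : ∀ u v v', β₀ u (v + v') = β₀ u v + β₀ u v' := fun u v v' => ψj _ _ (by
    rw [AddChar.map_add_eq_mul, mul_pow, hβ _ _ _ (lQ u) _ (lQ v) (lε u) (lε v),
      hβ _ _ _ (lQ u) _ (lQ v') (lε u) (lε v'), hβ _ _ _ (lQ u) _ (mul_mem (lQ v) (lQ v')) (lε u)
        (by rw [hs.mul _ (lQ v) _ (lQ v'), lε, lε]), ← Tm _ (cm (lQ u) (lQ v)),
      ← mul_inv_cancel_right ⁅lf u, lf v'⁆ (lf v), ← zc _ (cm (lQ u) (lQ v'))]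
    congr 1; simp only [commutatorElement_def]; group)
  let β := LinearMap.mk₂ (ZMod q) β₀ a1
    (fun c u v => ZMod.map_smul (AddMonoidHom.mk' (β₀ · v) fun u u' => a1 u u' v) c u) a2
    fun c u v => ZMod.map_smul (AddMonoidHom.mk' (β₀ u) (a2 u)) c v
  have hF : Fm φ β ψ := by
    refine ⟨hB, h2, fun h3 => ?_, fun w => ψj _ _ ?_, fun g u v => ψj _ _ ?_, ψ.map_add_eq_mul,
      ψ.map_zero_eq_one, ψi⟩
    · obtain rfl := (Nat.prime_dvd_prime_iff_eq hq.out Nat.prime_three).1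
        ((ZMod.natCast_eq_zero_iff 3 q).1 h3)
      exact zmod3
    · rw [show β w w = β₀ w w from rfl, hβ _ _ _ (lQ w) _ (lQ w) (lε w) (lε w)]
      simpa using To
    · have cj : ∀ w, ε (g * lf w * (g : X)⁻¹) = φ g w := fun w => by
        rw [← lε w, hs.conj g _ (lQ w), lε w]; rfl
      exact (hβ _ _ _ (cj_mem (hBQ g.2) (lQ u)) _ (cj_mem (hBQ g.2) (lQ v)) (cj u) (cj v)).trans (by
        rw [← conjugate_commutatorElement, Tc]; exact (hβ _ _ _ (lQ u) _ (lQ v) (lε u) (lε v)).symm)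
  have hφ : Function.Injective φ := (injective_iff_map_eq_one _).2 fun b e => by
    obtain ⟨a, ha⟩ := hB b
    have h3 : (b : X) ∈ 𝒞(Q) := fun u hu => (commutatorElement_eq_one_iff_mul_comm.1 (by
      have h4 : ⁅(b : X), u⁆ ∈ Q ⊓ 𝒞(Q) := (hs.eq_one_iff b).1 e u hu
      have h5 : ∀ n : ℕ, ⁅(b : X) ^ n, u⁆ = ⁅(b : X), u⁆ ^ n := fun n => by
        induction n with
        | zero => simp
        | succ n ih =>
          rw [pow_succ', show ⁅(b : X) * b ^ n, u⁆ = b * ⁅(b : X) ^ n, u⁆ * (b : X)⁻¹ * ⁅(b : X), u⁆ by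
            simp only [commutatorElement_def]; group, ih, zc _ (pow_mem h4.2 n),
            mul_inv_cancel_right, pow_succ]
      refine H50.eq_one_of_pow_of_coprime (m := 2 ^ a) ?_ (hexp _ h4.1) (hc2.pow_left a)
      rw [← h5, ← coe_pow, ha]; simp)).symm
    have h4 := Tp _ h3 (2 ^ a)
    rw [← coe_pow, ha, coe_one, To, eq_comm, ← sub_eq_zero, ← one_pow (2 ^ a), ← sub_pow_char_pow,
      pow_eq_zero_iff (by positivity), sub_eq_zero] at h4
    exact Subtype.ext (hρ (by rw [sc _ h3, h4, one_smul, coe_one, map_one]))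
  refine (top (ρ := ρ.comp B.subtype) hF hφ (fun ι h3 h4 => ?_) fun A hA => hV A
    (map_subtype_top B ▸ (Wd.comp_iff _).1 hA)).imp
      (fun e => by rw [← map_subtype_top B, ← map_dS, e, Subgroup.map_bot])
      (And.imp_right fun e c hc s hs h => (e ⟨c, hc⟩ ⟨s, hs⟩ (Subtype.ext h)).imp
        (congrArg Subtype.val) (congrArg Subtype.val))
  have i1 : (ι : X) * ι = 1 := congrArg Subtype.val h4
  have i2 : ∀ g : B, (g : X) * ι = ι * g := fun g => congrArg Subtype.val (mem_center_iff.1 h3 g)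
  have uq : ∀ g ∈ Q, ∀ h ∈ Q, ε g = ε h → ι * g * (ι : X)⁻¹ = g⁻¹ → ι * h * (ι : X)⁻¹ = h⁻¹ →
      g = h := fun g hg h hh e e1 e2 => by
    have h5 := (hs.eq_iff hg hh).1 e
    refine mul_inv_eq_one.1 (H50.eq_one_of_pow_of_coprime (m := 2) ?_ (hexp _ h5.1) hc2)
    have e3 := zc _ h5.2 (ι : X)
    rw [← mul_inv_eq_iff_eq_mul, ← conj_mul, e1, ← conj_inv, e2, inv_inv] at e3
    rw [pow_two]
    nth_rewrite 2 [← e3]
    rw [← mul_assoc, ← zc _ h5.2]; group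
  have hl : ∀ w, ∃ g ∈ Q, φ ι w = -w → ε g = w ∧ ι * g * (ι : X)⁻¹ = g⁻¹ := fun w => by
    have h5 := lQ ((2⁻¹ : ZMod q) • w)
    have h6 := cj_mem (hBQ ι.2) h5
    refine ⟨_, mul_mem h5 (inv_mem h6), fun e => ⟨?_, ?_⟩⟩
    · rw [hs.mul _ h5 _ (inv_mem h6), hs.inv h6, ← show _ = ε (ι * _ * (ι : X)⁻¹) from
        hs.conj ι _ h5, lε, map_smul, e, smul_neg, neg_neg, ← add_smul, ← two_mul,
        mul_inv_cancel₀ h2, one_smul]
    · simp only [mul_inv_rev, inv_inv, mul_assoc, inv_eq_of_mul_eq_one_right i1, i1, mul_one]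
  choose gl gQ hg using hl
  have gc : ∀ w (a : B), φ ι w = -w → ε (a * gl w * (a : X)⁻¹) = φ a w ∧
      ι * (a * gl w * (a : X)⁻¹) * (ι : X)⁻¹ = (a * gl w * (a : X)⁻¹)⁻¹ := fun w a e =>
    ⟨by rw [← (hg w e).1, hs.conj a _ (gQ w), (hg w e).1]; rfl, by
      rw [conj_inv, ← (hg w e).2, show ι * (a * gl w * (a : X)⁻¹) * (ι : X)⁻¹ =
        ι * a * gl w * ((ι : X) * a)⁻¹ by group, ← i2]
      group⟩
  have ng : ∀ w (a : B), φ ι w = -w → φ ι (φ a w) = -φ a w := fun w a e => by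
    rw [← rep_mul_apply, ← mem_center_iff.1 h3, rep_mul_apply, e, map_neg]
  refine ⟨fun w => (LinearMap.trace K V).toAddMonoidHom.comp (AddMonoidHom.mulLeft (ρ (gl w))),
    ?_⟩
  rw [show (fun w (g : B) => ((LinearMap.trace K V).toAddMonoidHom.comp
    (AddMonoidHom.mulLeft (ρ (gl w)))) ((ρ.comp B.subtype) g)) = fun w (g : B) => T (gl w * g) by
      ext; simp [T]]
  refine ⟨hF, h3, h4, fun w g e => ?_, fun w e h0 => ?_, ?_, fun w g a e => ?_⟩
  · obtain ⟨e1, e2⟩ := gc w g e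
    obtain ⟨e3, e4⟩ := hg w e
    obtain ⟨e5, e6⟩ := hg (w + φ g w) (by rw [map_add, e, ng w g e, neg_add])
    have m1 := cj_mem (hBQ g.2) (gQ w)
    have m2 := ((hs.eq_iff (mul_mem (gQ w) m1) (gQ (w + φ g w))).1
      (by rw [hs.mul _ (gQ w) _ m1, e1, e3, e5])).2
    have e7 : T (gl w * (g * gl w * (g : X)⁻¹) * (gl (w + φ g w))⁻¹) = ψ (β w (φ g w)) :=
      sq_inj (by
        rw [← Tp _ m2, show β w (φ g w) = β₀ w (φ g w) from rfl, hβ _ _ _ (gQ w) _ m1 e3 e1]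
        have e8 := zc _ m2 (ι : X)
        rw [← mul_inv_eq_iff_eq_mul, ← conj_mul, ← conj_mul, e2, e4, ← conj_inv, e6] at e8
        rw [pow_two, mul_assoc _ _ (gl w * _ * _), zc _ m2, ← e8, commutatorElement_def]
        congr 1; group)
    rw [← e7, ← Tm _ m2, ← trace_sq, ← map_mul]
    simp only [T, coe_mul]
    congr 2; group
  · rw [coe_one, mul_one]
    refine hi.trace_eq_zero (comm_mem_rad hcl) (g := ⟨_, gQ w⟩) fun e' => h0 ?_
    rw [← (hg w e).1, hs.zero _ (gQ w)]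
    exact ⟨gQ w, fun u hu => hρ (by simpa using (e' ⟨u, hu⟩).symm)⟩
  · rw [uq _ (gQ 0) 1 (one_mem _) ((hg 0 (by simp)).1.trans hs.one.symm) (hg 0 (by simp)).2
      (by simp), coe_one, mul_one, To]
  · rw [uq _ (gQ _) _ (cj_mem (hBQ a.2) (gQ w)) ((hg _ (ng w a e)).1.trans (gc w a e).1.symm)
      (hg _ (ng w a e)).2 (gc w a e).2, ← Tc a (gl w * g)]
    simp only [coe_mul, coe_inv, conj_mul]

end Cfsg.Agent.BR
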