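import Cfsg.Agent.H79.Gross2
import Cfsg.Agent.FLAV.Basic

/-! Exceptional elements normalizing a 2-group of class two. -/

set_option autoImplicit false
set_option linter.unusedSectionVars false

namespace Cfsg.Agent.BR

open Subgroup H49 H79 FLAV Module
open scoped commutatorElement

universe u

variable {X : Type u} [Group X] [Finite X] {P : Subgroup X} {a c t u x y : X} {q k : ℕ}

/-- A 2-group of class at most two with elementary abelian commutator quotient. -/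
structure Cl (P : Subgroup X) : Prop where
  pg : IsPGroup 2 P
  der : ⁅P, P⁆ ≤ 𝒞(P)
  sq : ∀ c ∈ P, c * c ∈ ⁅P, P⁆

namespace Cl
variable (h : Cl P)
include h

theorem comm (hx : x ∈ ⁅P, P⁆) (hy : y ∈ P) : Commute x y := (h.der hx y hy).symm

theorem comm' (hx : x ∈ P) (hy : y ∈ P) {z : X} (hz : z ∈ P) : Commute ⁅x, y⁆ z :=
  h.comm (commutator_mem_commutator hx hy) hz

theorem cm_sq (hx : x ∈ P) (hy : y ∈ P) : ⁅x, y⁆ * ⁅x, y⁆ = 1 := by
  have h1 : ⁅x * x, y⁆ = x * ⁅x, y⁆ * x⁻¹ * ⁅x, y⁆ := by group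
  rw [← (h.comm' hx hy hx).eq, mul_inv_cancel_right] at h1
  rw [← h1, commutatorElement_eq_one_iff_mul_comm.2 (h.comm (h.sq x hx) hy).eq]

theorem der_sq (hx : x ∈ ⁅P, P⁆) : x * x = 1 := by
  let L : Subgroup X :=
    { carrier := {x | x ∈ ⁅P, P⁆ ∧ x * x = 1}
      one_mem' := ⟨one_mem _, mul_one 1⟩
      mul_mem' := fun {a b} ha hb => ⟨mul_mem ha.1 hb.1, by
        rw [mul_assoc, ← mul_assoc b, ← (h.comm ha.1 (der_le hb.1)).eq, mul_assoc, hb.2, mul_one,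
          ha.2]⟩
      inv_mem' := fun {a} ha => ⟨inv_mem ha.1, by rw [← mul_inv_rev, ha.2, inv_one]⟩ }
  exact ((commutator_le (H₃ := L)).2 (fun x hx y hy =>
    ⟨commutator_mem_commutator hx hy, h.cm_sq hx hy⟩) hx).2

theorem map {Y : Type u} [Group Y] [Finite Y] (f : X →* Y) : Cl (P.map f) := by
  refine ⟨h.pg.map f, ?_, ?_⟩
  · rw [← map_commutator]
    rintro _ ⟨x, hx, rfl⟩ _ ⟨y, hy, rfl⟩
    rw [← map_mul, ← (h.comm hx hy).eq, map_mul]
  · rintro _ ⟨x, hx, rfl⟩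
    exact map_commutator P P f ▸ ⟨_, h.sq x hx, map_mul f x x⟩

end Cl

theorem pow_mul_mem (ha : a ∈ 𝒩(P)) (hc : c ∈ P) (n : ℕ) : (c * a) ^ n * (a ^ n)⁻¹ ∈ P := by
  induction n with
  | zero => simp
  | succ n ih => simpa [pow_succ', mul_assoc] using mul_mem hc (cj_mem ha ih)

theorem dbl {D : Subgroup X} (ha : a ∈ 𝒩(D)) {m : ℕ} (h : (c * a) ^ 2 ^ m * (a ^ 2 ^ m)⁻¹ ∈ D)
    (n : ℕ) : (c * a) ^ 2 ^ (m + n) * (a ^ 2 ^ (m + n))⁻¹ ∈ D := by
  induction n with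
  | zero => exact h
  | succ n ih =>
    have := mul_mem ih (cj_mem (pow_mem ha (2 ^ (m + n))) ih)
    simpa [← add_assoc, pow_succ _ (m + n), pow_mul, pow_two, mul_assoc] using this

variable {W : Type*} [AddCommGroup W] [hq : Fact q.Prime] [Module (ZMod q) W] [Finite W]
  {ρ : X →* End (ZMod q) W}

/-- Involutions commuting with `t` act as scalars on the space inverted by `t`. -/
def SP (ρ : X →* End (ZMod q) W) (t : X) : Prop := ∀ u, u * u = 1 → Commute u t →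
  (∀ w, ρ t w = -w → ρ u w = w) ∨ ∀ w, ρ t w = -w → ρ u w = -w

/-- An exceptional element. -/
structure Ex (ρ : X →* End (ZMod q) W) (k : ℕ) (a t : X) : Prop extends Refl ρ k a t where
  one : 1 ≤ k
  eq : 2 ^ (k + 1) = q + 1
  sp : SP ρ t

theorem two_ne (hqk : 2 ^ (k + 1) = q + 1) : (2 : ZMod q) ≠ 0 := fun e => by
  have hc2 : Nat.Coprime 2 q := by
    rw [← Nat.coprime_pow_left_iff (Nat.succ_pos k), hqk]; simp
  exact hq.out.one_lt.ne' (Nat.Coprime.eq_one_of_dvd hc2.symm ((ZMod.natCast_eq_zero_iff 2 q).1 e))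

theorem mu_ne (hk : 1 ≤ k) (hqk : 2 ^ (k + 1) = q + 1) (μ : ZMod q) : μ ^ 2 ^ k ≠ -1 := fun e => by
  have h1 : μ ^ 2 = 1 := by
    rw [pow_two, ← ZMod.pow_card μ, ZMod.pow_card μ, ← congrArg (· * μ) (ZMod.pow_card μ),
      ← pow_succ, ← hqk, pow_succ, pow_mul, e, neg_one_sq]
  obtain ⟨j, rfl⟩ := Nat.exists_eq_add_of_le hk
  rw [pow_add, pow_one, pow_mul, h1, one_pow, eq_neg_iff_add_eq_zero, one_add_one_eq_two] at e
  exact two_ne hqk e

theorem ext_pm (hρ : Function.Injective ρ) (h2 : (2 : ZMod q) ≠ 0) (ht : t * t = 1)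
    (h1 : ∀ w, ρ t w = w → ρ x w = ρ y w) (h3 : ∀ w, ρ t w = -w → ρ x w = ρ y w) : x = y :=
  hρ (LinearMap.ext fun v => smul_right_injective W h2 (by
    have e : (2 : ZMod q) • v = (v + ρ t v) + (v - ρ t v) := by module
    simp only [← map_smul]
    rw [e, map_add (ρ x), map_add (ρ y), h1 (v + ρ t v) (by rw [map_add, rep_invol ht, add_comm]),
      h3 (v - ρ t v) (by rw [map_sub, rep_invol ht, neg_sub])]))

/-- The elements commuting with `t` and fixing its fixed space. -/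
def MM (ρ : X →* End (ZMod q) W) (t : X) : Subgroup X where
  carrier := {u | Commute u t ∧ ∀ w, ρ t w = w → ρ u w = w}
  one_mem' := ⟨Commute.one_left t, fun w _ => by simp⟩
  mul_mem' := fun {a b} ha hb => ⟨ha.1.mul_left hb.1, fun w hw => by
    rw [rep_mul_apply, hb.2 w hw, ha.2 w hw]⟩
  inv_mem' := fun {a} ha => ⟨ha.1.inv_left, fun w hw => by
    rw [← ha.2 w hw, H79.rep_inv_apply, ha.2 w hw]⟩

theorem conj_MM (hc : Commute c t) (hu : u ∈ MM ρ t) : c⁻¹ * u * c ∈ MM ρ t :=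
  ⟨(hc.inv_left.mul_left hu.1).mul_left hc, fun w hw => by
    rw [rep_mul_apply, rep_mul_apply, hu.2 _ (by rw [← rep_comm hc, hw]), H79.rep_inv_apply]⟩

namespace Ex
variable (h : Ex ρ k a t) (hρ : Function.Injective ρ)
include h hρ

theorem mem : a ∈ MM ρ t := ⟨h.comm, fun _ => h.fix (two_ne h.eq)⟩

theorem of_sq (hu : u ∈ MM ρ t) (h1 : u * u = 1) : u = 1 ∨ u = t :=
  (h.sp u h1 hu.1).imp
    (fun e => ext_pm hρ (two_ne h.eq) h.sq (by simpa using hu.2) (by simpa using e))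
    fun e => ext_pm hρ (two_ne h.eq) h.sq (fun w hw => (hu.2 w hw).trans hw.symm)
      fun w hw => (e w hw).trans hw.symm

theorem comm_of_sq (h1 : c * c = 1) (hc : Commute c t) : Commute c a :=
  ext_pm hρ (two_ne h.eq) h.sq (fun w hw => by
    rw [rep_mul_apply, rep_mul_apply, (h.mem hρ).2 w hw, (h.mem hρ).2 _ (by rw [← rep_comm hc, hw])])
    fun w hw => by
      have : ρ t (ρ a w) = -ρ a w := by rw [← rep_comm h.comm, hw, map_neg]
      rw [rep_mul_apply, rep_mul_apply]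
      rcases h.sp c h1 hc with e | e
      · rw [e w hw, e _ this]
      · rw [e w hw, e _ this, map_neg]

theorem dich' {S : Subgroup X} (hS : IsPGroup 2 S) (haS : a ∈ S) (hc : c ∈ S) :
    Commute c t ∨ Commute a (c⁻¹ * a * c) := by
  have hc2 : Nat.Coprime 2 q := by
    rw [← Nat.coprime_pow_left_iff (Nat.succ_pos k), h.eq]; simp
  have han : a ^ 2 ^ (k + 1) = 1 := by rw [pow_succ, pow_mul, h.pow, pow_two, h.sq]
  obtain ⟨B, -, hBS, hSB, hB⟩ := H50.exists_SCN_ge (A := ⊥) hS.isNilpotent bot_le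
    le_normalizer_of_normal inferInstance
  have hBc : B ≤ 𝒞(B) := hB.ge.trans inf_le_right
  obtain ⟨Ψ, hΨ⟩ := exists_baseChange (ZMod q) W
  have htB : t ∈ B := hB.le ⟨h.pow ▸ pow_mem haS _, h.pow ▸ cent_of_quad (Ψ.toMonoidHom.comp ρ)
    (hΨ.comp hρ) (abelian_iff.2 hBc) (natCast_ne_zero_of_coprime
      (H50.coprime_card_of_pgroup (hS.to_le hBS) hc2.symm).symm) (hSB haS) h.one han
      (by simpa [h.pow] using congrArg Ψ h.quad)⟩
  have hcj : ∀ r ∈ S, ∀ b ∈ B, r * b * r⁻¹ ∈ B := fun r hr b => conj_mem_of_normalizer (hSB hr)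
  have hr := inv_mem hc
  have ha' := mul_mem (mul_mem hr haS) (inv_mem hr)
  obtain ⟨j, hj⟩ := hS ⟨_, mul_mem haS ha'⟩
  refine (h.dich (h.conj c⁻¹) hρ (two_ne h.eq) (mu_ne h.one h.eq) (hBc (hcj _ hr t htB) t htB)
    (hBc (hcj a haS _ (hcj _ hr t htB)) _ (hcj _ hr t htB))
    (hBc (hcj _ ha' t htB) t htB) (congrArg Subtype.val hj)).imp (fun e => ?_) (by simp)
  exact Commute.inv_left_iff.1 (mul_inv_eq_iff_eq_mul.1 e.symm)

/-- The quaternion case. -/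
theorem quat (hP : Cl P) (ha : a ∈ 𝒩(P)) {d : X} (hd : d ∈ MM ρ t ⊓ P) (h1 : d * d = t) :
    d * (a ^ 2 * d * (a ^ 2)⁻¹) ∈ zpowers t := by
  have hR : a ∈ 𝒩(MM ρ t ⊓ P) := inv_inf (le_normalizer (h.mem hρ)) ha
  have hT : ∀ u, u = 1 ∨ u = t → u ∈ zpowers t := by
    rintro _ (rfl | rfl); exacts [one_mem _, mem_zpowers _]
  have hsq : ∀ x ∈ MM ρ t ⊓ P, x * x = 1 ∨ x * x = t := fun x hx =>
    h.of_sq hρ (mul_mem hx.1 hx.1) (hP.der_sq (hP.sq x hx.2))
  have hj : ∀ x, x * x = t → a * x * a⁻¹ * (a * x * a⁻¹) = t := fun x e => by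
    rw [conj_mul, e, h.comm.eq, mul_inv_cancel_right]
  set d₁ := a * d * a⁻¹ with e1
  set d₂ := a * d₁ * a⁻¹ with e2
  have m1 : d₁ ∈ MM ρ t ⊓ P := cj_mem hR hd
  have m2 : d₂ ∈ MM ρ t ⊓ P := cj_mem hR m1
  rw [show a ^ 2 * d * (a ^ 2)⁻¹ = d₂ by rw [e2, e1, pow_two]; group]
  have me := mul_mem hd m2
  rcases hsq _ me with e | e
  · exact hT _ (h.of_sq hρ me.1 e)
  have k1 : ⁅d₁, d₂⁆ = ⁅d, d₁⁆ := by
    have m := commutator_mem_commutator hd.2 m1.2
    rw [e2, e1, ← conjugate_commutatorElement]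
    rcases h.of_sq hρ (mul_mem (mul_mem (mul_mem hd.1 m1.1) (inv_mem hd.1)) (inv_mem m1.1))
      (hP.der_sq m) with e | e <;> rw [← commutatorElement_def] at e <;> rw [e]
    · group
    · rw [h.comm.eq, mul_inv_cancel_right]
  have k2 : Commute d₁ (d * d₂) := commutatorElement_eq_one_iff_commute.1 (by
    rw [show ⁅d₁, d * d₂⁆ = ⁅d, d₁⁆⁻¹ * (d * ⁅d₁, d₂⁆ * d⁻¹) by group, k1,
      ← (hP.comm' hd.2 m1.2 hd.2).eq, mul_inv_cancel_right, inv_mul_cancel])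
  have k3 : d₁ * (d * d₂) ∈ zpowers t := hT _ (h.of_sq hρ (mul_mem m1.1 me.1) (by
    rw [← pow_two, k2.mul_pow, pow_two, pow_two, e, hj d h1, h.sq]))
  have nT : ∀ x, Commute x t → x ∈ 𝒩(zpowers t) := fun x e =>
    norm_of_cent (A := zpowers x) (zpowers_le.2 (cent_zpowers t ▸ mem_cent1.2 e)) (mem_zpowers x)
  have k4 := cj_mem (nT a h.comm) k3
  have k5 : ⁅d⁻¹, a ^ 3⁆ ∈ zpowers t := by
    have := mul_mem (inv_mem (cj_mem' (nT _ (mul_mem m1.1 hd.1).1) k3)) k4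
    convert this using 1
    simp only [e2, e1, commutatorElement_def, pow_succ, pow_zero, one_mul]; group
  obtain ⟨s, hs⟩ := exists_pow_eq_self_of_coprime (x := a) (n := 3) (Nat.Coprime.coprime_dvd_right
    (orderOf_dvd_of_pow_eq_one (show a ^ 2 ^ (k + 1) = 1 by
      rw [pow_succ, pow_mul, h.pow, pow_two, h.sq])) (Nat.Coprime.pow_right _ (by norm_num)))
  have k6 := comm_zpowers_mem (pow_mem (nT a h.comm) 3) k5 (y := a ^ 2)
    (pow_mem (⟨s, (zpow_natCast _ s).trans hs⟩ : a ∈ zpowers (a ^ 3)) 2)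
  have := mul_mem (hT _ (.inr h1)) k6
  rw [e2, e1]
  convert this using 1
  simp only [commutatorElement_def, pow_two]; group

theorem core (hP : Cl P) (ha : a ∈ 𝒩(P)) (hS : IsPGroup 2 ↥(P ⊔ zpowers a)) (hc : c ∈ P)
    (ht : t ≠ 1) (h1 : (c * a) ^ 2 ^ (k + 1) = 1)
    (h2 : (c * a) ^ 2 ^ k = 1 ∨ Refl ρ k (c * a) ((c * a) ^ 2 ^ k)) :
    (c * a) ^ 2 ^ k * (a ^ 2 ^ k)⁻¹ ∈ ⁅P, P⁆ := by
  set d := c⁻¹ * a * c * a⁻¹ with hd
  have dP : d ∈ P := by simpa [hd, mul_assoc] using mul_mem (inv_mem hc) (cj_mem ha hc)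
  have cc := hP.sq c hc
  have y2 : (c * a) ^ 2 * (a ^ 2)⁻¹ = c * c * d := by simp only [hd, pow_two]; group
  have hd1 : Commute c a → d = 1 := fun e => by rw [hd, mul_assoc c⁻¹, ← e.eq]; group
  have hdich := h.dich' hρ hS (mem_sup_right (mem_zpowers a)) (mem_sup_left hc)
  have dM : Commute c t → d ∈ MM ρ t := fun e =>
    mul_mem (conj_MM e (h.mem hρ)) (inv_mem (h.mem hρ))
  rcases h.one.eq_or_lt with rfl | hk
  · have ea : a ^ 2 = t := h.pow
    have y2' : (c * a) ^ 2 = c * c * d * t := by rw [← y2, ← ea, inv_mul_cancel_right]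
    have h3 : Commute t (c * c * d) → d * d = 1 := fun e => by
      rw [pow_succ, pow_mul, pow_one, y2', e.symm.mul_pow, (hP.comm cc dP).mul_pow, pow_two, pow_two,
        pow_two, hP.der_sq cc, h.sq, one_mul, mul_one] at h1
      exact h1
    have hct : Commute c t := hdich.elim id fun e => by
      have e1 : d * d = c⁻¹ * t * c * t⁻¹ := by
        rw [← pow_two, hd, e.symm.inv_right.mul_pow, ← ea]; simp only [pow_two]; group
      have e2 : Commute t d := ea ▸ (e.mul_right (Commute.refl a).inv_right).pow_left 2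
      have e3 : t * (c * c) * t⁻¹ = c * c := by
        have dd := hP.sq d dP
        rw [show t * (c * c) * t⁻¹ = c * (c⁻¹ * t * c * t⁻¹) * (c * (c⁻¹ * t * c * t⁻¹)) by group,
          ← e1, ← pow_two, (hP.comm dd hc).symm.mul_pow, pow_two, pow_two, hP.der_sq dd, mul_one]
      have := h3 ((show Commute t (c * c) from mul_inv_eq_iff_eq_mul.1 e3).mul_right e2)
      rw [e1, mul_inv_eq_one, mul_assoc, inv_mul_eq_iff_eq_mul] at this
      exact this.symm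
    rw [pow_one, y2]
    rcases h.of_sq hρ (dM hct) (h3 ((hct.symm.mul_right hct.symm).mul_right (dM hct).1.symm))
      with e | e
    · rwa [e, mul_one]
    rw [pow_one, y2', e, mul_assoc, h.sq, mul_one] at h2
    have h4 : ¬ Commute c a := fun e' => ht (e ▸ hd1 e')
    obtain ⟨j, hj⟩ := hS ⟨_, mul_mem (mem_sup_right (mem_zpowers a))
      (mul_mem (mem_sup_left hc) (mem_sup_right (mem_zpowers a)))⟩
    rcases h.dich (h2.resolve_left fun e => h4 (h.comm_of_sq hρ e hct)) hρ (two_ne h.eq)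
      (mu_ne h.one h.eq) (hct.symm.mul_right hct.symm)
      (hP.comm cc (cj_mem ha (mul_mem hc hc))) (by
        rw [(hct.mul_left h.comm).eq, mul_inv_cancel_right]) (congrArg Subtype.val hj) with e' | e'
    · rw [e, ← e', h.sq]; exact one_mem _
    · exact absurd (by simpa using (e'.mul_right (Commute.refl a).inv_right).symm) h4
  obtain ⟨n, rfl⟩ := Nat.exists_eq_add_of_le (show 2 ≤ k from hk)
  have nD : a ∈ 𝒩(⁅P, P⁆) := inv_comm ha ha
  refine dbl nD ?_ n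
  have h3 : d * (a ^ 2 * d * (a ^ 2)⁻¹) ∈ ⁅P, P⁆ := by
    have h4 : Commute a d → d * (a ^ 2 * d * (a ^ 2)⁻¹) ∈ ⁅P, P⁆ := fun e => by
      rw [(e.pow_left 2).eq, mul_inv_cancel_right]; exact hP.sq d dP
    rcases hdich with e | e
    swap
    · exact h4 (e.mul_right (Commute.refl a).inv_right)
    rcases h.of_sq hρ (mul_mem (dM e) (dM e)) (hP.der_sq (hP.sq d dP)) with e' | e'
    · rcases h.of_sq hρ (dM e) e' with e'' | e''
      exacts [h4 (e'' ▸ Commute.one_right a), h4 (e'' ▸ h.comm)]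
    exact zpowers_le.2 (e' ▸ hP.sq d dP) (h.quat hρ hP ha ⟨dM e, dP⟩ e')
  have h4 := cj_mem (pow_mem nD 2) cc
  have : (c * a) ^ 2 ^ 2 * (a ^ 2 ^ 2)⁻¹ = c * c * (d * (a ^ 2 * (c * c) * (a ^ 2)⁻¹) * d⁻¹) *
      (d * (a ^ 2 * d * (a ^ 2)⁻¹)) := by
    simp only [hd, pow_succ, pow_zero, one_mul, Nat.reduceMul]; group
  rw [this]
  exact mul_mem (mul_mem cc (conj_mem_of_norm norm_der dP h4)) h3

end Ex

/-- The local lemma. -/
theorem ll (hρ : Function.Injective ρ) (hP : Cl P) (ha : a ∈ 𝒩(P)) (hc : c ∈ P)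
    (h1 : a ^ 2 ^ (k + 1) = 1) (h2 : a ^ 2 ^ k = 1 ∨ Ex ρ k a (a ^ 2 ^ k))
    (h3 : (c * a) ^ 2 ^ (k + 1) = 1) (h4 : (c * a) ^ 2 ^ k = 1 ∨ Ex ρ k (c * a) ((c * a) ^ 2 ^ k)) :
    (c * a) ^ 2 ^ k * (a ^ 2 ^ k)⁻¹ ∈ ⁅P, P⁆ := by
  have hS : ∀ {a : X}, a ∈ 𝒩(P) → a ^ 2 ^ (k + 1) = 1 → IsPGroup 2 ↥(P ⊔ zpowers a) := fun ha h1 =>
    hP.pg.to_sup_of_normal_left' (IsPGroup.of_card_dvd_pow (by
      rw [Nat.card_zpowers]; exact orderOf_dvd_of_pow_eq_one h1)) (zn ha)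
  by_cases e : a ^ 2 ^ k = 1
  swap
  · exact (h2.resolve_left e).core hρ hP ha (hS ha h1) hc e h3 (h4.imp_right fun h => h.toRefl)
  by_cases e' : (c * a) ^ 2 ^ k = 1
  · rw [e, e', inv_one, mul_one]; exact one_mem _
  have ha' := mul_mem (le_normalizer hc) ha
  have := (h4.resolve_left e').core hρ hP ha' (hS ha' h3) (inv_mem hc) e' (by simpa using h1)
    (.inl (by simpa using e))
  simpa using inv_mem this

end Cfsg.Agent.BR
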